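import Mathlib
import Cfsg.Agent.Ch.Orthogonality
import Cfsg.Agent.FG.Camina
import Cfsg.Agent.GT.Frattini
import Cfsg.Agent.GT.FrobeniusComplement
import Cfsg.Agent.GT.FixedPointFreeThompson
import Cfsg.Agent.NT.Zsigmondy
import Cfsg.Agent.S0205

/-!
# Groups whose derived subgroup is a normal subgroup together with one conjugacy class
-/

set_option autoImplicit false

namespace Cfsg.Agent.Deg

open Cfsg Cfsg.Agent.Ch Subgroup
open scoped commutatorElement

variable {G : Type*} [Group G]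

theorem pow_card_sub_one_mem_centralizer [Finite G] {W : Subgroup G} (hW : GT.IsMinNormal W)
    (hc : commutator G ≤ centralizer (W : Set G)) (h : G) :
    h ^ (Nat.card W - 1) ∈ centralizer (W : Set G) := by
  have := hW.normal
  let ρ : G →* MulAut W := MulAut.conjNormal
  have hρ : ∀ a : G, ρ a = 1 ↔ a ∈ centralizer (W : Set G) := by
    intro a
    constructor
    · intro h1 w hw
      have := congrArg Subtype.val (DFunLike.congr_fun h1 ⟨w, hw⟩)
      exact (mul_inv_eq_iff_eq_mul.1 this).symm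
    · intro h1
      ext w
      exact mul_inv_eq_iff_eq_mul.2 (h1 w w.2).symm
  have h1 : Nat.card ρ.range ∣ Nat.card W - 1 := by
    refine GT.Frob.card_dvd_card_sub_one_of_free (1 : W) (fun a => map_one a.1) ?_
    rintro ⟨_, a, rfl⟩ w hw ha
    have ha' : a * w * a⁻¹ = w := congrArg Subtype.val ha
    have hn : (W ⊓ centralizer {a}).Normal := ⟨fun x hx c => ⟨this.conj_mem x hx.1 c, by
      have h2 := mem_centralizer_singleton_iff.1 hx.2
      have h3 := hc (commutator_mem_commutator (mem_top a⁻¹) (mem_top c⁻¹)) x hx.1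
      rw [commutatorElement_def] at h3
      refine mem_centralizer_singleton_iff.2 ?_
      calc c * x * c⁻¹ * a = c * (x * a) * a⁻¹ * c⁻¹ * a := by group
        _ = c * a * (x * (a⁻¹ * c⁻¹ * a⁻¹⁻¹ * c⁻¹⁻¹)) * c⁻¹ := by rw [h2]; group
        _ = _ := by rw [h3]; group⟩⟩
    rcases hW.eq_bot_or_eq (K := W ⊓ centralizer {a}) inf_le_left with h2 | h2
    · refine absurd (Subtype.ext (mem_bot.1 ?_)) hw
      rw [← h2]
      exact ⟨w.2, mem_centralizer_singleton_iff.2 (mul_inv_eq_iff_eq_mul.1 ha').symm⟩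
    · exact Subtype.ext ((hρ a).2 fun x hx => mem_centralizer_singleton_iff.1 (h2.ge hx).2)
  obtain ⟨k, hk⟩ := h1
  rw [← hρ, map_pow, hk, pow_mul]
  have : (⟨ρ h, h, rfl⟩ : ρ.range) ^ Nat.card ρ.range = 1 := pow_card_eq_one'
  rw [show ρ h ^ Nat.card ρ.range = 1 from congrArg Subtype.val this, one_pow]

theorem card_mul_card_lt_of_coset [Finite G] {R L U : Subgroup G} {g : G} (hg : g ∈ R)
    (hgL : g ∉ L) (hUL : U ≤ L) (hLR : L ≤ R) (hU : R ≤ centralizer (U : Set G))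
    (h : ∀ l ∈ L, ∃ x ∈ R, x * g * x⁻¹ = g * l) : Nat.card U * Nat.card L < Nat.card R := by
  set E := centralizer ({⟨g, hg⟩} : Set R) with hE
  have h1 : Nat.card L ≤ E.index := by
    rw [← card_isConj_eq_index]
    refine Nat.card_le_card_of_injective
      (fun l => ⟨⟨g * l, R.mul_mem hg (hLR l.2)⟩, ?_⟩) fun a b hab => ?_
    · obtain ⟨x, hx, he⟩ := h l l.2
      exact isConj_iff.2 ⟨⟨x, hx⟩, Subtype.ext he⟩
    · exact Subtype.ext (mul_left_cancel (congrArg (fun y => y.1.1) hab))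
  have h2 : U.subgroupOf R < E := by
    refine lt_of_le_of_ne (fun u hu => mem_centralizer_singleton_iff.2 (Subtype.ext (hU hg u hu)))
      fun he => hgL (hUL ?_)
    have : (⟨g, hg⟩ : R) ∈ E := mem_centralizer_singleton_iff.2 rfl
    rwa [← he] at this
  have h3 := GT.card_lt_of_lt h2
  rw [GT.card_subgroupOf_of_le (hUL.trans hLR)] at h3
  rw [← card_mul_index E]
  exact Nat.mul_lt_mul_of_lt_of_le h3 h1 (Nat.pos_of_ne_zero index_ne_zero_of_finite)

theorem mem_centralizer_of_coset [Finite G] {r n : ℕ} (hr : r.Prime) {R L : Subgroup G} [R.Normal]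
    [L.Normal] (hR : IsPGroup r R) (hGR : commutator G ≤ R) {g : G} (hg : g ∈ R) (hgL : g ∉ L)
    (hLR : L ≤ R) (h : ∀ l ∈ L, ∃ x ∈ R, x * g * x⁻¹ = g * l) (hn : L.relIndex R = r ^ n) {τ : G}
    (hτ : (orderOf τ).Coprime r) (hτ' : ∀ m, 0 < m → m < n → ∃ h, τ = h ^ (r ^ m - 1)) :
    τ ∈ centralizer (L : Set G) := by
  have := Fact.mk hr
  refine GT.chief_induction (P := fun U => U ≤ L → τ ∈ centralizer (U : Set G)) (W := ⊥)
    ?_ ?_ L bot_le le_rfl
  · intro _ x hx
    rw [mem_bot.1 hx]; simp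
  intro U V hUV _ ih hUL
  have hV := hUV.2.2.1
  have hVL := hUV.1.le.trans hUL
  have hmin := hUV.isMinNormal_map
  set π := QuotientGroup.mk' V with hπ
  have hRp : IsPGroup r (R.map π) := hR.map π
  have := GT.normal_map_mk' (N := V) R
  have := hRp.isNilpotent
  have hC := hmin.le_centralizer_of_isNilpotent (R.map π)
  have h1 := card_mul_card_lt_of_coset (R := R.map π) (L := L.map π) (U := U.map π) (g := π g)
    (mem_map_of_mem π hg) (fun h2 => hgL (by
      have : g ∈ (L.map π).comap π := h2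
      rwa [GT.comap_map_mk', sup_eq_left.2 hVL] at this))
    (map_mono hUL) (map_mono hLR) hC (by
      rintro _ ⟨l, hl, rfl⟩
      obtain ⟨x, hx, he⟩ := h l hl
      exact ⟨π x, mem_map_of_mem π hx, by rw [← map_inv, ← map_mul, ← map_mul, he, map_mul]⟩)
  obtain ⟨m, hm⟩ := IsPGroup.iff_card.1 (hRp.to_le (map_mono (hUL.trans hLR)))
  have hm0 : 0 < m := by
    rcases Nat.eq_zero_or_pos m with rfl | h0
    · exact absurd (card_eq_one.1 hm) hmin.ne_bot
    · exact h0
  have hmn : m < n := by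
    have e1 := GT.card_map_mk'_mul_card_inf L V
    have e2 := GT.card_map_mk'_mul_card_inf R V
    rw [inf_eq_right.2 hVL] at e1
    rw [inf_eq_right.2 (hVL.trans hLR), ← GT.card_mul_relIndex hLR, ← e1, hn, mul_right_comm] at e2
    rw [hm, Nat.eq_of_mul_eq_mul_right Nat.card_pos e2, mul_comm] at h1
    exact (Nat.pow_lt_pow_iff_right hr.one_lt).1 (Nat.lt_of_mul_lt_mul_left h1)
  obtain ⟨k, hk⟩ := hτ' m hm0 hmn
  have h2 := pow_card_sub_one_mem_centralizer hmin (le_trans (by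
    rw [commutator_def, ← map_top_of_surjective π (QuotientGroup.mk'_surjective V),
      ← map_commutator]
    exact map_mono hGR) hC) (π k)
  rw [hm, ← map_pow, ← hk] at h2
  intro u hu
  have h3 : u⁻¹ * (τ * u * τ⁻¹) ∈ V := by
    have := h2 (π u) (mem_map_of_mem π hu)
    rw [← QuotientGroup.eq]
    change π u = π (τ * u * τ⁻¹)
    rw [map_mul, map_mul, map_inv, ← this, mul_inv_cancel_right]
  set w := u⁻¹ * (τ * u * τ⁻¹) with hw
  have h4 := ih hVL w h3
  have h5 : ∀ j : ℕ, τ ^ j * u * (τ ^ j)⁻¹ = u * w ^ j := by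
    intro j
    induction j with
    | zero => simp
    | succ j ihj =>
      have h6 : Commute w τ := h4
      calc τ ^ (j + 1) * u * (τ ^ (j + 1))⁻¹ = τ * (τ ^ j * u * (τ ^ j)⁻¹) * τ⁻¹ := by group
        _ = τ * u * τ⁻¹ * (τ * w ^ j * τ⁻¹) := by rw [ihj]; group
        _ = u * w * w ^ j := by rw [← (h6.pow_left j).eq, mul_inv_cancel_right, hw]; group
        _ = _ := by rw [mul_assoc, ← pow_succ']
  have h6 := h5 (orderOf τ)
  rw [pow_orderOf_eq_one, one_mul, inv_one, mul_one, left_eq_mul] at h6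
  have h7 : w = 1 := GT.Tr.eq_one_of_coprime_of_isPGroup hR (hLR (hVL h3))
    (Nat.Coprime.coprime_dvd_left (orderOf_dvd_of_pow_eq_one h6) hτ)
  rw [hw, inv_mul_eq_one, eq_mul_inv_iff_mul_eq] at h7
  exact h7

theorem exists_fpf_of_transitive [Finite G] {V : Type*} [CommGroup V] [Finite V] {r n : ℕ}
    (hr : r.Prime) (hr2 : r ≠ 2) (hn : 0 < n) (hV : Nat.card V = r ^ n) (ρ : G →* MulAut V)
    (hc : commutator G ≤ ρ.ker) (ht : ∀ v w : V, v ≠ 1 → w ≠ 1 → ∃ c, ρ c v = w) :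
    ∃ τ : G, (orderOf τ).Coprime r ∧ (∀ v, ρ τ v = v → v = 1) ∧
      ∀ m, 0 < m → m < n → ∃ h, τ = h ^ (r ^ m - 1) := by
  classical
  have := Fact.mk hr
  have hcomm : ∀ a b, ρ a * ρ b = ρ b * ρ a := fun a b => by
    have := hc (commutator_mem_commutator (mem_top a) (mem_top b))
    rw [MonoidHom.mem_ker, map_commutatorElement, commutatorElement_eq_one_iff_mul_comm] at this
    exact this
  have hfree : ∀ a v, ρ a ≠ 1 → ρ a v = v → v = 1 := by
    intro a v ha hv
    by_contra hv1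
    apply ha
    ext w
    by_cases hw : w = 1
    · rw [hw, map_one, map_one]
    · obtain ⟨c, rfl⟩ := ht v w hv1 hw
      rw [← MulAut.mul_apply, hcomm, MulAut.mul_apply, hv]; rfl
  have hq : 1 < r ^ n := Nat.one_lt_pow hn.ne' hr.one_lt
  have : Nontrivial V := Finite.one_lt_card_iff_nontrivial.1 (hV ▸ hq)
  obtain ⟨v₀, hv₀⟩ := exists_ne (1 : V)
  have hidx : ρ.ker.index = r ^ n - 1 := by
    rw [index_ker, ← hV]
    have e : ρ.range ≃ {v : V // v ≠ 1} := Equiv.ofBijective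
      (fun a => ⟨a.1 v₀, fun h => hv₀ (a.1.map_eq_one_iff.1 h)⟩) ⟨by
        rintro ⟨_, a, rfl⟩ ⟨_, b, rfl⟩ hab
        have hab' : ρ a v₀ = ρ b v₀ := congrArg Subtype.val hab
        have : ρ (b⁻¹ * a) = 1 := by
          by_contra h1
          exact hv₀ (hfree _ _ h1 (by rw [map_mul, MulAut.mul_apply, hab', map_inv]; simp))
        rw [map_mul, map_inv, inv_mul_eq_one] at this
        exact Subtype.ext this.symm, fun w => by
        obtain ⟨c, hc⟩ := ht v₀ w hv₀ w.2
        exact ⟨⟨ρ c, c, rfl⟩, Subtype.ext hc⟩⟩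
    rw [Nat.card_congr e]
    have := Fintype.ofFinite V
    rw [Nat.card_eq_fintype_card, Nat.card_eq_fintype_card, Fintype.card_subtype_compl]
    simp
  have hcop : ∀ m, 0 < m → (r ^ m - 1).Coprime r := fun m hm => by
    have h1 : 1 ≤ r ^ m := Nat.one_le_pow _ _ hr.pos
    refine Nat.Coprime.coprime_dvd_right (dvd_pow_self r hm.ne') ?_
    obtain ⟨k, hk⟩ := Nat.exists_eq_add_of_le' h1
    rw [hk]; simp
  have hprime : ∀ t : ℕ, t.Prime → t ∣ r ^ n - 1 → (∀ m, 0 < m → m < n → ¬ t ∣ r ^ m - 1) →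
      ∃ τ : G, (orderOf τ).Coprime r ∧ (∀ v, ρ τ v = v → v = 1) ∧
      ∀ m, 0 < m → m < n → ∃ h, τ = h ^ (r ^ m - 1) := by
    intro t ht htd htm
    have := Fact.mk ht
    obtain ⟨T⟩ : Nonempty (Sylow t G) := inferInstance
    have h1 : ¬ (T : Subgroup G) ≤ ρ.ker := fun hle =>
      T.not_dvd_index ((hidx ▸ htd).trans (index_dvd_of_le hle))
    obtain ⟨τ, hτT, hτ⟩ := SetLike.not_le_iff_exists.1 h1
    obtain ⟨k, hk⟩ := T.isPGroup' ⟨τ, hτT⟩
    have h2 : orderOf τ ∣ t ^ k := orderOf_dvd_of_pow_eq_one (congrArg Subtype.val hk)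
    refine ⟨τ, Nat.Coprime.coprime_dvd_left h2
      (Nat.Coprime.pow_left k ((hcop n hn).coprime_dvd_left htd)), fun v => hfree τ v hτ,
      fun m hm hmn => ?_⟩
    obtain ⟨j, hj⟩ := exists_pow_eq_self_of_coprime (x := τ) (n := r ^ m - 1)
      (Nat.Coprime.coprime_dvd_right h2 (Nat.Coprime.pow_right k
        (Nat.coprime_comm.1 (ht.coprime_iff_not_dvd.2 (htm m hm hmn)))))
    exact ⟨τ ^ j, by rw [← pow_mul, mul_comm, pow_mul, hj]⟩
  by_cases hn1 : n = 1
  · refine hprime 2 Nat.prime_two ?_ fun m h1 h2 => by omega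
    rw [hn1, pow_one]
    exact even_iff_two_dvd.1 (Nat.Odd.sub_odd (hr.odd_of_ne_two hr2) odd_one)
  by_cases hn2 : n = 2
  swap
  · obtain ⟨t, ht, h1, h2⟩ := NT.zsigmondy hr.one_lt (n := n) (by omega) (fun h => hr2 h.1)
      (fun h => hn2 h.1)
    exact hprime t ht h1 h2
  subst hn2
  have hF : GT.Frob.HasFpfAction ρ.range := GT.Frob.hasFpfAction_of_finite ρ.range.subtype (by
    rintro ⟨_, a, rfl⟩ ha v hv
    exact hfree a v (fun h => ha (Subtype.ext h)) hv)
  have : IsMulCommutative ρ.range := ⟨⟨by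
    rintro ⟨_, a, rfl⟩ ⟨_, b, rfl⟩
    exact Subtype.ext (hcomm a b)⟩⟩
  obtain ⟨⟨_, h, rfl⟩, hh⟩ := isCyclic_iff_exists_orderOf_eq_natCard.1 hF.isCyclic_of_comm
  rw [← index_ker, hidx, ← orderOf_coe] at hh
  obtain ⟨a, -, b, -, ⟨k, hk⟩, hb, rfl⟩ := GT.Tr.exists_pPart_mul_pPrimePart (p := r) h
  have ha : ρ a = 1 := GT.mem_of_coprime_orderOf_index (N := ρ.ker) (by
    rw [hk, hidx]; exact Nat.Coprime.pow_left k (hcop 2 hn).symm)
  simp only [map_mul, ha, one_mul] at hh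
  refine ⟨b ^ (r - 1), hb.coprime_dvd_left (orderOf_pow_dvd _), fun v => hfree _ v fun h1 => ?_,
    fun m h1 h2 => ⟨b, by rw [show m = 1 by omega, pow_one]⟩⟩
  rw [map_pow, ← orderOf_dvd_iff_pow_eq_one, hh] at h1
  have h2 := hr.two_le
  have h3 := Nat.le_of_dvd (by omega) h1
  have h4 : r < r ^ 2 := by nlinarith
  omega

theorem pow_eq_one_of_class_diff [Finite G] {r : ℕ} (hr : r.Prime) (hr2 : r ≠ 2) {L : Subgroup G}
    [hL : L.Normal] (hR : IsPGroup r (commutator G)) (hidx : ¬ r ∣ (commutator G).index)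
    (hLR : L ≤ commutator G) (hRL : ⁅commutator G, commutator G⁆ ≤ L) {g : G}
    (hg : g ∈ commutator G) (hgL : g ∉ L) (hgr : g ^ r ∈ L)
    (h : ∀ x ∈ commutator G, x ∉ L → IsConj g x) : g ^ r = 1 := by
  have := Fact.mk hr
  set R := commutator G with hRdef
  obtain ⟨k, hk⟩ := GT.PG.exists_pow_pow_eq_one_of_mem hR hg
  have hcos : ∀ l ∈ L, ∃ x ∈ R, x * g * x⁻¹ = g * l := by
    obtain ⟨-, P, hP, -, -, h1, h2⟩ := FG.exists_pgroup_conj_eq_mul L hk fun l hl =>
      isConj_iff.1 (h _ (R.mul_mem hg (hLR hl)) fun h3 => hgL ((L.mul_mem_cancel_right hl).1 h3))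
    obtain ⟨j, hj⟩ := GT.PG.relIndex_eq_pow_of_isPGroup (hR.to_le hLR) P
    have hLP : L ≤ P := by
      rcases Nat.eq_zero_or_pos j with rfl | h0
      · exact relIndex_eq_one.1 hj
      · exact absurd (hj ▸ dvd_pow_self r h0.ne') h1
    have hPR : P ≤ R := GT.le_of_coprime_card_index (GT.coprime_card_of_isPGroup hr hP
      (Nat.coprime_comm.1 (hr.coprime_iff_not_dvd.2 hidx)))
    intro l hl
    obtain ⟨x, hx, he⟩ := h2 l hl (hLP hl)
    exact ⟨x, hPR hx, he⟩
  obtain ⟨n, hn⟩ := GT.PG.relIndex_eq_pow_of_isPGroup hR L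
  have hn0 : 0 < n := by
    rcases Nat.eq_zero_or_pos n with rfl | h0
    · exact absurd (relIndex_eq_one.1 hn hg) hgL
    · exact h0
  set π := QuotientGroup.mk' L with hπ
  have := GT.normal_map_mk' (N := L) R
  have hVc : IsMulCommutative (R.map π) := by
    rw [GT.PG.isMulCommutative_iff_le_centralizer, ← commutator_eq_bot_iff_le_centralizer,
      ← GT.commutator_le_iff_map_mk']
    exact hRL
  let ρ : G →* MulAut (R.map π) := MulAut.conjNormal.comp π
  have hρ : ∀ (a : G) (v : R.map π), (ρ a v : G ⧸ L) = π a * v * (π a)⁻¹ := fun _ _ => rfl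
  open scoped IsMulCommutative in
  obtain ⟨τ, hτ1, hτ2, hτ3⟩ := exists_fpf_of_transitive (V := R.map π) hr hr2 hn0
    (by rw [GT.card_map_mk'_eq_relIndex, hn]) ρ (fun a ha => by
      rw [MonoidHom.mem_ker]
      ext v
      rw [hρ, mul_inv_eq_iff_eq_mul]
      exact GT.PG.isMulCommutative_iff_forall.1 hVc _ (mem_map_of_mem π ha) _ v.2) (by
      rintro ⟨_, v, hv, rfl⟩ ⟨_, w, hw, rfl⟩ hv1 hw1
      have e1 := h v hv fun h1 => hv1 (Subtype.ext ((QuotientGroup.eq_one_iff v).2 h1))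
      have e2 := h w hw fun h1 => hw1 (Subtype.ext ((QuotientGroup.eq_one_iff w).2 h1))
      obtain ⟨c, hc⟩ := isConj_iff.1 (e1.symm.trans e2)
      exact ⟨c, Subtype.ext (by rw [hρ]; subst hc; simp)⟩)
  have hτL := mem_centralizer_of_coset hr hR le_rfl hg hgL hLR hcos hn hτ1 hτ3
  have hLR' : L ≤ ⁅R, R⁆ := fun l hl => by
    obtain ⟨x, hx, he⟩ := hcos l hl
    have := commutator_mem_commutator (R.inv_mem hg) hx
    rwa [commutatorElement_def, inv_inv, mul_assoc, mul_assoc, ← mul_assoc x, he,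
      inv_mul_cancel_left] at this
  have hcen : R ≤ centralizer (L : Set G) := by
    have := hR.isNilpotent
    have h1 : R ⊓ centralizer (L : Set G) = R := by
      refine GT.eq_of_sup_of_le_map_frattini inf_le_left
        (hLR'.trans (GT.commutator_self_le_map_frattini R)) fun x hx => ?_
      have hfpf : MonoidHom.FixedPointFree (ρ τ) := fun v hv => hτ2 v hv
      obtain ⟨⟨_, y, hy, rfl⟩, hxy⟩ := hfpf.commutatorMap_surjective ⟨π x, mem_map_of_mem π hx⟩
      have h2 : π (y * (τ * y * τ⁻¹)⁻¹) = π x := by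
        have := congrArg Subtype.val hxy
        rw [MonoidHom.commutatorMap_apply, div_eq_mul_inv, coe_mul, coe_inv, hρ] at this
        simpa using this
      have h3 : (y * (τ * y * τ⁻¹)⁻¹)⁻¹ * x ∈ L := QuotientGroup.eq.1 h2
      rw [← mul_inv_cancel_left (y * (τ * y * τ⁻¹)⁻¹) x]
      refine mul_mem (mem_sup_left ⟨R.mul_mem hy (R.inv_mem (Normal.conj_mem inferInstance y hy τ)), ?_⟩)
        (mem_sup_right h3)
      have : y * (τ * y * τ⁻¹)⁻¹ = y * τ * y⁻¹ * τ⁻¹ := by group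
      rw [this]
      exact mul_mem (Normal.conj_mem inferInstance τ hτL y) (Subgroup.inv_mem _ hτL)
    exact h1.ge.trans inf_le_right
  obtain ⟨σ, hσ⟩ := isConj_iff.1 (h g⁻¹ (R.inv_mem hg) fun h1 => hgL (L.inv_mem_iff.1 h1))
  have hσx : ∀ x ∈ R, x * (σ * x * σ⁻¹) ∈ L := by
    intro x hx
    by_cases hxL : x ∈ L
    · exact L.mul_mem hxL (hL.conj_mem x hxL σ)
    · obtain ⟨c, hc⟩ := isConj_iff.1 (h x hx hxL)
      have h1 := hRL (commutator_mem_commutator hx
        (commutator_mem_commutator (mem_top σ) (mem_top c)))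
      have h2 : σ * x * σ⁻¹ = ⁅σ, c⁆ * x⁻¹ * ⁅σ, c⁆⁻¹ := by
        rw [← hc, commutatorElement_def]
        calc σ * (c * g * c⁻¹) * σ⁻¹ = σ * c * σ⁻¹ * (σ * g * σ⁻¹) * σ * c⁻¹ * σ⁻¹ := by group
          _ = _ := by rw [hσ]; group
      rw [h2]
      convert h1 using 1
      rw [commutatorElement_def x]; group
  have hσL : ∀ l ∈ L, σ * l * σ⁻¹ = l := by
    intro l hl
    obtain ⟨x, hx, he⟩ := hcos l hl
    set l' := x * (σ * x * σ⁻¹) with hl'
    have e1 := hcen hg l' (hσx x hx)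
    have e2 := hcen hx l hl
    have e3 := hcen hg l hl
    have e4 : x⁻¹ * g⁻¹ * x = l * g⁻¹ := by
      calc x⁻¹ * g⁻¹ * x = x⁻¹ * (l * x) * (x⁻¹ * (g * l)⁻¹ * x) := by group
        _ = _ := by rw [← he, e2]; group
    calc σ * l * σ⁻¹ = σ * (g⁻¹ * (x * g * x⁻¹)) * σ⁻¹ := by rw [he]; group
      _ = (σ * g * σ⁻¹)⁻¹ * x⁻¹ * l' * (σ * g * σ⁻¹) * l'⁻¹ * x := by rw [hl']; group
      _ = g * x⁻¹ * g⁻¹ * (g * l') * g⁻¹ * l'⁻¹ * x := by rw [hσ]; group
      _ = g * (x⁻¹ * g⁻¹ * x) := by rw [← e1]; group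
      _ = l := by rw [e4, ← mul_assoc, ← e3]; group
  have h1 := hσL _ hgr
  rw [← conj_pow, hσ, inv_pow, inv_eq_iff_mul_eq_one, ← sq] at h1
  exact GT.Tr.eq_one_of_coprime_of_isPGroup hR (R.pow_mem hg r)
    (Nat.Coprime.coprime_dvd_left (orderOf_dvd_of_pow_eq_one h1)
      ((Nat.coprime_primes Nat.prime_two hr).2 hr2.symm))

/-- If `G' ∖ K` is one conjugacy class, with `G'/K` elementary abelian (and Sylow in `G/K` for an
odd prime), then `G` is solvable. -/
theorem isSolvable_of_class_diff [Finite G] {r : ℕ} (hr : r.Prime) {K : Subgroup G}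
    [hK : K.Normal] (hidx : r ≠ 2 → ¬ r ∣ (commutator G).index)
    (hKR : K ≤ commutator G) (hRK : ⁅commutator G, commutator G⁆ ≤ K) {g : G}
    (hg : g ∈ commutator G) (hgK : g ∉ K) (hpow : ∀ x ∈ commutator G, x ^ r ∈ K)
    (h : ∀ x ∈ commutator G, x ∉ K → IsConj g x) : Group.IsSolvable G := by
  have := Fact.mk hr
  set R := commutator G with hRdef
  obtain ⟨k, hk⟩ : ∃ k, g ^ r ^ k = 1 := by
    obtain ⟨a, ha, b, hb, ⟨k, hk⟩, hbo, he⟩ := GT.Tr.exists_pPart_mul_pPrimePart (p := r) g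
    have hbK : b ∈ K := by
      obtain ⟨j, hj⟩ := exists_pow_eq_self_of_coprime hbo.symm
      rw [← hj]
      exact K.pow_mem (hpow b (zpowers_le.2 hg hb)) j
    have haK : a ∉ K := fun h1 => hgK (he ▸ K.mul_mem h1 hbK)
    obtain ⟨c, hc⟩ := isConj_iff.1 (h a (zpowers_le.2 hg ha) haK).symm
    exact ⟨k, by rw [← hc, conj_pow, ← hk, pow_orderOf_eq_one]; simp⟩
  have hcos : ∀ l ∈ K, ∃ x, x * g * x⁻¹ = g * l := fun l hl =>
    isConj_iff.1 (h _ (R.mul_mem hg (hKR hl)) fun h3 => hgK ((K.mul_mem_cancel_right hl).1 h3))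
  have hH := FG.hasNormalPComplement_of_coset_conj K hk hcos
  set D := (pResidual r K).map K.subtype with hD
  have hDK : D ≤ K := map_subtype_le _
  have hDn : D.Normal := inferInstance
  have hDc : ¬ r ∣ Nat.card D := by
    rw [hD, GT.card_map_subtype]
    exact hH.not_dvd_card_pResidual
  set π := QuotientGroup.mk' D with hπ
  have hcomm : commutator (G ⧸ D) = R.map π := by
    rw [commutator_def, ← map_top_of_surjective π (QuotientGroup.mk'_surjective D),
      ← map_commutator]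
    rfl
  have hRp : IsPGroup r (R.map π) := by
    rintro ⟨_, x, hx, rfl⟩
    obtain ⟨j, hj⟩ := GT.Tr.exists_pow_coprime_orderOf (p := r) (x ^ r)
    refine ⟨j + 1, Subtype.ext ?_⟩
    rw [SubgroupClass.coe_pow, ← map_pow, pow_succ', pow_mul]
    exact (QuotientGroup.eq_one_iff _).2 (GT.Tr.mem_map_pResidual (K.pow_mem (hpow x hx) _) hj)
  have hDs : Group.IsSolvable D := by
    by_cases hr2 : r = 2
    · subst hr2
      exact S0205.result (Nat.odd_iff.2 (Nat.two_dvd_ne_zero.1 hDc))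
    have := GT.normal_map_mk' (N := D) K
    have hmem : ∀ x, π x ∈ K.map π ↔ x ∈ K := fun x => by
      rw [← mem_comap, GT.comap_map_mk', sup_eq_left.2 hDK]
    have h1 := pow_eq_one_of_class_diff (G := G ⧸ D) hr hr2 (L := K.map π) (hcomm ▸ hRp)
      (by rw [hcomm, index_map_eq _ (QuotientGroup.mk'_surjective D)
        (by rw [QuotientGroup.ker_mk']; exact hDK.trans hKR)]; exact hidx hr2)
      (hcomm ▸ map_mono hKR) (by rw [hcomm, ← map_commutator]; exact map_mono hRK) (g := π g)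
      (hcomm ▸ mem_map_of_mem π hg) (fun h1 => hgK ((hmem g).1 h1))
      (by rw [← map_pow]; exact mem_map_of_mem π (hpow g hg)) (by
        rw [hcomm]
        rintro _ ⟨x, hx, rfl⟩ hxK
        exact π.map_isConj (h x hx fun h1 => hxK ((hmem x).2 h1)))
    rw [← map_pow] at h1
    have h2 : g ^ r = 1 := by
      refine orderOf_eq_one_iff.1 (Nat.eq_one_of_dvd_coprimes (Nat.Coprime.pow_right k
        (GT.Tr.coprime_orderOf_of_mem hDc ((QuotientGroup.eq_one_iff _).1 h1))) (dvd_refl _)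
        (orderOf_dvd_of_pow_eq_one ?_))
      rw [← pow_mul, mul_comm, pow_mul, hk, one_pow]
    have : Group.IsNilpotent D := by
      refine GT.Frob.isNilpotent_of_inf_centralizer_eq_bot (le_normalizer_of_normal (mem_top g))
        hr h2 (eq_bot_iff.2 ?_)
      rintro y ⟨hy, hyg⟩
      obtain ⟨c, hc⟩ := hcos y (hDK hy)
      have h3 := FG.pow_eq_one_of_conj_eq_mul hc (mem_centralizer_singleton_iff.1 hyg).symm h2
      exact orderOf_eq_one_iff.1 (Nat.eq_one_of_dvd_coprimes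
        (GT.Tr.coprime_orderOf_of_mem hDc hy) (dvd_refl _) (orderOf_dvd_of_pow_eq_one h3))
    infer_instance
  have h1 : Group.IsSolvable (G ⧸ D) := by
    have := (hcomm ▸ hRp : IsPGroup r (commutator (G ⧸ D))).isNilpotent
    have := Normal.quotient_commutative_iff_commutator_le.2 (le_refl (commutator (G ⧸ D)))
    have : Group.IsSolvable ((G ⧸ D) ⧸ commutator (G ⧸ D)) := GT.isSolvable_of_isMulCommutative
    exact Group.isSolvable_of_ker_le_range (commutator (G ⧸ D)).subtype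
      (QuotientGroup.mk' (commutator (G ⧸ D))) (by simp)
  exact Group.isSolvable_of_ker_le_range D.subtype π (by simp [hπ])

end Cfsg.Agent.Deg
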