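import Mathlib
import Cfsg.Agent.Deg.Basic
import Cfsg.Agent.S4798
import Cfsg.Agent.GT.Supersolvable2

/-!
# Faithful irreducible characters of prime codegree
-/

set_option autoImplicit false

namespace Cfsg.Agent.Deg

open Cfsg Cfsg.Agent.Ch

variable {G : Type*} [Group G]

/-- A faithful irreducible character of prime codegree `p` forces a self-centralizing normal
subgroup of order `p` whose index is the degree. -/
theorem exists_normal_of_prime_codeg [Finite G] {χ : G → ℂ} (hχ : IsIrrCharacter G χ)
    (hf : ∀ g : G, χ g = χ 1 → g = 1) {p : ℕ} (hp : p.Prime)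
    (hcod : Nat.card G = p * charDegree χ) :
    ∃ P : Subgroup G, P.Normal ∧ Nat.card P = p ∧ P.index = charDegree χ ∧ charDegree χ < p ∧
      Subgroup.centralizer (P : Set G) ≤ P := by
  classical
  have := Fintype.ofFinite G
  have := Fact.mk hp
  have hd := hχ.charDegree_pos
  have h1 : charDegree χ ≤ p := by
    have := hχ.charDegree_sq_le
    rw [hcod, sq] at this
    exact Nat.le_of_mul_le_mul_right this hd
  have h2 : charDegree χ ≠ p := by
    intro h
    have hc : IsMulCommutative G :=
      IsPGroup.isMulCommutative_of_card_eq_prime_sq (p := p) (by rw [hcod, h, sq])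
    have := hχ.apply_one_eq_one_of_comm fun a b => hc.is_comm.comm a b
    rw [← hχ.isCharacter.charDegree_eq_one_iff] at this
    exact hp.one_lt.ne' (h ▸ this)
  have h3 : charDegree χ < p := lt_of_le_of_ne h1 h2
  obtain ⟨P, θ, hθ, he⟩ := (S4798.result p ⟨χ, hχ⟩ hf).1 ⟨1, by rw [pow_one]; exact hcod⟩
  change χ = _ at he
  have hnd : ¬ p ∣ charDegree χ := fun h => absurd (Nat.le_of_dvd hd h) (not_le.2 h3)
  have hP : Nat.card (P : Subgroup G) = p := by
    rw [P.card_eq_multiplicity, hcod, Nat.factorization_mul hp.ne_zero hd.ne']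
    simp [hp.factorization_self, Nat.factorization_eq_zero_of_not_dvd hnd]
  have hi : (P : Subgroup G).index = charDegree χ := by
    apply Nat.eq_of_mul_eq_mul_left hp.pos
    rw [← hcod, ← Subgroup.card_mul_index (P : Subgroup G), hP]
  have hn : (P : Subgroup G).Normal := GT.SS.sylow_normal_of_index_le P (hi ▸ h1)
  refine ⟨P, hn, hP, hi, h3, ?_⟩
  have h4 : charDegree θ = 1 := by
    have := charDegree_indFun (P : Subgroup G) hθ
    rw [← he, hi] at this
    exact Nat.eq_of_mul_eq_mul_left hd (by rw [← this, mul_one])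
  have hθi : IsIrrCharacter _ θ := hθ.isIrr_of_apply_one (hθ.charDegree_eq_one_iff.1 h4)
  have h5 := (isIrrCharacter_indFun_iff hθi).1 (he ▸ hχ)
  exact fun g hg => h5 (mem_inertia'.2 (conjChar_of_mem_centralizer θ hg))

end Cfsg.Agent.Deg
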