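import Mathlib
import Cfsg.Agent.Ch.RealChar
import Cfsg.Agent.Ch.Galois
import Cfsg.Agent.Ch.AbelianQuot
import Cfsg.Agent.Ch.CliffordRel
import Cfsg.Agent.GT.HallTools

/-! Characters fixed by a power map `g ↦ g ^ k` over a normal subgroup of odd index on whose
quotient the power map is inversion. -/

set_option autoImplicit false

namespace Cfsg.Agent.Deg
open Cfsg Cfsg.Agent.Ch
open scoped ComplexConjugate

theorem classInner_comp_pow {H : Type*} [Group H] [Fintype H] {k : ℕ}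
    (hk : k.Coprime (Nat.card H)) (φ ψ : H → ℂ) :
    classInner (fun h => φ (h ^ k)) (fun h => ψ (h ^ k)) = classInner φ ψ := by
  simp only [classInner_def]
  congr 1
  exact (Finite.injective_iff_bijective.1 (pow_injective_of_coprime_card hk)).sum_comp
    fun h => φ h * conj (ψ h)

variable {G : Type*} [Group G] {N : Subgroup G} [hN : N.Normal] {k : ℕ}

theorem conjChar_pow (g : G) (θ : N → ℂ) (n : N) (k : ℕ) :
    conjChar g θ (n ^ k) = conjChar g (fun m => θ (m ^ k)) n := by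
  simp only [conjChar_eq_comp, map_pow]

theorem mem_of_isConj_pow [Finite G] (hodd : Odd N.index) (hq : ∀ x : G, x ^ k * x ∈ N) {n x : G}
    (hn : n ∈ N) (h : IsConj (n * x) (x ^ k)) : x ∈ N := by
  have h1 := (QuotientGroup.mk' N).map_isConj h
  have h2 : QuotientGroup.mk' N (x ^ k) = (QuotientGroup.mk' N x)⁻¹ :=
    eq_inv_of_mul_eq_one_left (by rw [← map_mul]; exact (QuotientGroup.eq_one_iff _).2 (hq x))
  rw [h2, map_mul] at h1
  have := RC.mem_of_isConj_inv (N := (⊥ : Subgroup (G ⧸ N))) (by rwa [Subgroup.index_bot])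
    ((QuotientGroup.eq_one_iff _).2 hn) h1
  exact (QuotientGroup.eq_one_iff _).1 this

open Classical in
theorem sum_over_pow_eq_zero [Fintype G] [Fintype N] (hodd : Odd N.index)
    (hq : ∀ x : G, x ^ k * x ∈ N) {θ : N → ℂ} (hθ : IsIrrCharacter N θ) {x : G} (hx : x ∉ N) :
    ∑ χ ∈ (Finset.univ.filter fun χ : IrrCharacter G =>
      classInner (fun n : N => (χ : G → ℂ) n) θ ≠ 0), χ.1 x * conj (χ.1 (x ^ k)) = 0 := by
  set c : ℂ := Nat.card G / (((inertia N θ).index : ℂ) * θ 1) with hc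
  have hc0 : c ≠ 0 := div_ne_zero (natCard_ne_zero G)
    (mul_ne_zero (by exact_mod_cast Subgroup.index_ne_zero_of_finite) hθ.apply_one_ne_zero)
  have h1 : ∀ χ : IrrCharacter G, ∑ g, conj (indFun N θ g) * (χ : G → ℂ) (g * x) =
      if classInner (fun n : N => (χ : G → ℂ) n) θ ≠ 0 then c * (χ : G → ℂ) x else 0 := by
    intro χ
    rw [χ.2.sum_conj_mul_apply_mul (indFun_isClassFunction N θ),
      classInner_indFun_right N θ χ.2.isClassFunction]
    split_ifs with h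
    · rw [clifford_apply_one χ.2 hθ h, hc]
      congr 1
      field_simp
    · rw [not_not.1 h]; simp
  have h2 : ∑ χ : IrrCharacter G, (∑ g, conj (indFun N θ g) * (χ : G → ℂ) (g * x)) *
      conj ((χ : G → ℂ) (x ^ k)) = 0 := by
    simp_rw [Finset.sum_mul]
    rw [Finset.sum_comm]
    refine Finset.sum_eq_zero fun g _ => ?_
    simp_rw [mul_assoc]
    rw [← Finset.mul_sum]
    by_cases hg : g ∈ N
    · rw [column_orthogonality_of_not_isConj fun h => hx (mem_of_isConj_pow hodd hq hg h), mul_zero]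
    · rw [indFun_normal_of_not_mem N θ hg]; simp
  refine (mul_eq_zero.1 ?_).resolve_left hc0
  refine Eq.trans ?_ h2
  rw [Finset.sum_filter, Finset.mul_sum]
  refine Finset.sum_congr rfl fun χ _ => ?_
  rw [h1]
  split_ifs <;> ring

theorem existsUnique_fixed_over [Finite G] [Fintype N] (hodd : Odd N.index)
    (hk : k.Coprime (Nat.card G)) (hq : ∀ x : G, x ^ k * x ∈ N) {θ : N → ℂ}
    (hθ : IsIrrCharacter N θ) (hr : ∀ n, θ (n ^ k) = θ n) :
    ∃! χ : IrrCharacter G, classInner (fun n : N => (χ : G → ℂ) n) θ ≠ 0 ∧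
      ∀ g, (χ : G → ℂ) (g ^ k) = (χ : G → ℂ) g := by
  classical
  have := Fintype.ofFinite G
  suffices h : (Finset.univ.filter fun χ : IrrCharacter G =>
      classInner (fun n : N => (χ : G → ℂ) n) θ ≠ 0 ∧
        ∀ g, (χ : G → ℂ) (g ^ k) = (χ : G → ℂ) g).card = 1 by
    obtain ⟨χ, hχ⟩ := Finset.card_eq_one.1 h
    have h : ∀ ψ : IrrCharacter G, (classInner (fun n : N => (ψ : G → ℂ) n) θ ≠ 0 ∧
        ∀ g, (ψ : G → ℂ) (g ^ k) = (ψ : G → ℂ) g) ↔ ψ = χ := by
      intro ψ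
      rw [← Finset.mem_singleton, ← hχ, Finset.mem_filter]
      simp
    exact ⟨χ, (h χ).2 rfl, fun ψ hψ => (h ψ).1 hψ⟩
  set A := Finset.univ.filter fun χ : IrrCharacter G =>
    classInner (fun n : N => (χ : G → ℂ) n) θ ≠ 0 with hA
  set Θ : N → ℂ := ∑ ψ ∈ conjugates θ, ψ with hΘ
  have h1 : ((Finset.univ.filter fun χ : IrrCharacter G =>
      classInner (fun n : N => (χ : G → ℂ) n) θ ≠ 0 ∧
        ∀ g, (χ : G → ℂ) (g ^ k) = (χ : G → ℂ) g).card : ℂ) =
      ∑ χ ∈ A, classInner (χ : G → ℂ) (fun g => (χ : G → ℂ) (g ^ k)) := by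
    rw [← Finset.filter_filter, Finset.card_filter, Nat.cast_sum]
    refine Finset.sum_congr rfl fun χ _ => ?_
    split_ifs with h
    · rw [funext h, χ.2.classInner_self, Nat.cast_one]
    · rw [χ.2.classInner_eq_zero (χ.2.comp_pow_of_coprime hk) fun h' => h fun g =>
        (congrFun h' g).symm, Nat.cast_zero]
  have hsq : ∑ χ ∈ A, classInner (fun n : N => (χ : G → ℂ) n) θ *
      conj (classInner (fun n : N => (χ : G → ℂ) n) θ) = N.relIndex (inertia N θ) := by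
    rw [← classInner_indFun_self hθ, (indFun_isClassFunction N θ).classInner_eq_sum, hA,
      Finset.sum_filter]
    refine Finset.sum_congr rfl fun χ _ => ?_
    rw [classInner_indFun_eq_res N hθ.isCharacter χ.2.isCharacter]
    split_ifs with h
    · rfl
    · rw [not_not.1 h]; simp
  have hΘr : ∀ n, Θ (n ^ k) = Θ n := by
    intro n
    rw [hΘ, Finset.sum_apply, Finset.sum_apply]
    refine Finset.sum_congr rfl fun ψ hψ => ?_
    obtain ⟨g, rfl⟩ := mem_conjugates.1 hψ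
    rw [conjChar_pow, funext hr]
  have hΘΘ : ∑ n : N, Θ n * conj (Θ n) = Nat.card N * (inertia N θ).index := by
    have h3 : classInner Θ Θ = (inertia N θ).index := by
      conv_lhs => rw [hΘ]
      rw [classInner_sum_right, ← card_conjugates, Finset.card_eq_sum_ones, Nat.cast_sum]
      refine Finset.sum_congr rfl fun ψ hψ => ?_
      rw [classInner_sum_conjugates hθ (isIrrCharacter_of_mem_conjugates hθ hψ), if_pos hψ,
        Nat.cast_one]
    rw [← h3, card_mul_classInner]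
  have h2 : ∑ g : G, ∑ χ ∈ A, (χ : G → ℂ) g * conj ((χ : G → ℂ) (g ^ k)) = Nat.card G := by
    have h4 : ∀ g : G, ∑ χ ∈ A, (χ : G → ℂ) g * conj ((χ : G → ℂ) (g ^ k)) =
        extendByZero N (fun n => N.relIndex (inertia N θ) * (Θ n * conj (Θ n))) g := by
      intro g
      by_cases hg : g ∈ N
      · rw [extendByZero_of_mem _ _ hg, ← hsq, Finset.sum_mul]
        refine Finset.sum_congr rfl fun χ hχ => ?_
        have h5 := congrFun (clifford χ.2 hθ (Finset.mem_filter.1 hχ).2) ⟨g, hg⟩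
        have h6 := congrFun (clifford χ.2 hθ (Finset.mem_filter.1 hχ).2) (⟨g, hg⟩ ^ k)
        simp only [Pi.smul_apply, smul_eq_mul, ← hΘ, hΘr, Subgroup.coe_pow] at h5 h6
        rw [h5, h6, map_mul]; ring
      · rw [extendByZero_of_not_mem _ _ hg, hA, sum_over_pow_eq_zero hodd hq hθ hg]
    simp_rw [h4]
    rw [sum_extendByZero, ← Finset.mul_sum, hΘΘ, ← (inertia N θ).card_mul_index,
      card_inertia_eq_mul hθ.isClassFunction]
    push_cast; ring
  have h3 : ∑ χ ∈ A, classInner (χ : G → ℂ) (fun g => (χ : G → ℂ) (g ^ k)) = 1 := by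
    simp_rw [classInner_def]
    rw [← Finset.mul_sum, Finset.sum_comm, h2, inv_mul_cancel₀ (natCard_ne_zero G)]
  rw [h3] at h1
  exact_mod_cast h1

theorem exists_fixed_ext [Finite G] (hodd : Odd N.index)
    (hk : k.Coprime (Nat.card G)) (hq : ∀ x : G, x ^ k * x ∈ N) {θ : N → ℂ}
    (hθ : IsIrrCharacter N θ) (hr : ∀ n, θ (n ^ k) = θ n) {η : G → ℂ} (hη : IsCharacter G η)
    (h : ∀ n : N, η n = θ n) :
    ∃ χ, IsIrrCharacter G χ ∧ (∀ n : N, χ n = θ n) ∧ ∀ g, χ (g ^ k) = χ g := by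
  obtain ⟨β, hβ, h1⟩ := exists_hom_mul_of_extends hθ hη (hη.comp_pow_of_coprime hk) h
    fun n => by rw [← hr, ← h, Subgroup.coe_pow]
  obtain ⟨m, hm⟩ := hodd
  have h2 : ∀ n : N, ((β ^ (m + 1)) n : ℂ) * η n = θ n := fun n => by
    rw [MonoidHom.pow_apply, hβ _ n.2, one_pow, Units.val_one, one_mul, h]
  refine ⟨fun g => (β ^ (m + 1)) g * η g,
    isIrr_of_extends ((isCharacter_monoidHom_units _).mul hη) hθ h2, h2, fun g => ?_⟩
  have h3 : β (g ^ k) = (β g)⁻¹ := eq_inv_of_mul_eq_one_left (by rw [← map_mul, hβ _ (hq g)])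
  have h4 : β g ^ (2 * m + 1) = 1 := by rw [← hm, ← map_pow, hβ _ (N.pow_index_mem g)]
  have h5 : (β g)⁻¹ ^ (m + 1) * β g = β g ^ (m + 1) := by
    rw [inv_pow, inv_mul_eq_iff_eq_mul, ← pow_add, show m + 1 + (m + 1) = 2 * m + 1 + 1 by ring,
      pow_succ, h4, one_mul]
  simp only [congrFun h1 g, MonoidHom.pow_apply, h3]
  rw [← mul_assoc, ← Units.val_mul, h5]

universe u in
theorem ext_of_prime_pow_index {q : ℕ} (hqp : q.Prime) (a : ℕ) : ∀ (G : Type u) [Group G] [Finite G]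
    (N : Subgroup G) [hN : N.Normal], N.index = q ^ a → Odd N.index → k.Coprime (Nat.card G) →
    (∀ x : G, x ^ k * x ∈ N) → ∀ θ : N → ℂ, IsIrrCharacter N θ → (∀ n, θ (n ^ k) = θ n) →
    (∀ (g : G) (n : N), θ ⟨g * n * g⁻¹, hN.conj_mem n n.2 g⟩ = θ n) →
    ∃ χ, IsIrrCharacter G χ ∧ ∀ n : N, χ n = θ n := by
  have : Fact q.Prime := ⟨hqp⟩
  induction a with
  | zero =>
    intro G _ _ N _ hi _ _ _ θ hθ _ hinv
    exact extends_of_coprime hθ hinv (by simp [hi])
  | succ a IH =>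
    intro G _ _ N hN hi hodd hk hq θ hθ hr hinv
    have hP : IsPGroup q (G ⧸ N) := IsPGroup.of_card hi
    have : Nontrivial (G ⧸ N) := Finite.one_lt_card_iff_nontrivial.1
      (hi ▸ Nat.one_lt_pow (Nat.succ_ne_zero a) hqp.one_lt : 1 < N.index)
    obtain ⟨M', hM', hM'i⟩ : ∃ M' : Subgroup (G ⧸ N), M'.Normal ∧ M'.index = q := by
      have := hP.isNilpotent
      obtain ⟨M', h1, h2⟩ := GT.HT.exists_normal_index_prime (G ⧸ N)
      exact ⟨M', h1, (Nat.prime_dvd_prime_iff_eq h2 hqp).1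
        (h2.dvd_of_dvd_pow (M'.index_dvd_card.trans (dvd_of_eq hi)))⟩
    obtain ⟨M, hM⟩ : ∃ M, M = M'.comap (QuotientGroup.mk' N) := ⟨_, rfl⟩
    have hMn : M.Normal := hM ▸ inferInstance
    have hMi : M.index = q := by
      rw [hM, Subgroup.index_comap_of_surjective _ (QuotientGroup.mk'_surjective N), hM'i]
    have hNM : N ≤ M := hM ▸ QuotientGroup.le_comap_mk' N M'
    have h1 := Subgroup.relIndex_mul_index hNM
    have h2 : N.relIndex M = q ^ a := by
      rw [hi, hMi, pow_succ] at h1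
      exact Nat.eq_of_mul_eq_mul_right hqp.pos h1
    have hodd' : Odd (N.subgroupOf M).index := (Nat.odd_mul.1 (h1 ▸ hodd)).1
    have hk' : k.Coprime (Nat.card M) := hk.coprime_dvd_right (Subgroup.card_subgroup_dvd_card M)
    have hq' : ∀ x : M, x ^ k * x ∈ N.subgroupOf M := fun x => hq x
    have hθ' := isIrrCharacter_subgroupOf hNM hθ
    have hr' : ∀ n, subOf M θ (n ^ k) = subOf M θ n := fun n => hr ⟨n, n.2⟩
    obtain ⟨η, hη, h3⟩ := IH M (N.subgroupOf M) h2 hodd' hk' hq' _ hθ' hr' fun g n => hinv g ⟨n, n.2⟩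
    obtain ⟨ξ, hξ, h4, h5⟩ := exists_fixed_ext hodd' hk' hq' hθ' hr' hη.isCharacter h3
    have := Fintype.ofFinite (N.subgroupOf M)
    have hov : ∀ {φ : M → ℂ}, (∀ n : N.subgroupOf M, φ n = subOf M θ n) →
        classInner (fun n : N.subgroupOf M => φ n) (subOf M θ) ≠ 0 := fun h => by
      rw [funext h, hθ'.classInner_self]; exact one_ne_zero
    obtain ⟨χ, hχ, h6⟩ := extends_of_prime_index (hMi ▸ hqp) hξ (invariant_iff_conjChar.2 fun g =>
      congrArg Subtype.val ((existsUnique_fixed_over hodd' hk' hq' hθ' hr').unique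
        (y₁ := ⟨conjChar g ξ, isIrrCharacter_conjChar hξ g⟩) (y₂ := ⟨ξ, hξ⟩)
        ⟨hov fun n => (h4 ⟨⟨g * n * g⁻¹, hMn.conj_mem _ n.1.2 g⟩, hN.conj_mem _ n.2 g⟩).trans
          (hinv g ⟨n, n.2⟩), fun x => by simp only [conjChar_pow, h5]⟩ ⟨hov h4, h5⟩))
    exact ⟨χ, hχ, fun n => (h6 ⟨n, hNM n.2⟩).trans (h4 ⟨⟨n, hNM n.2⟩, n.2⟩)⟩

theorem ext_of_fixed [Finite G] (hodd : Odd N.index)
    (hk : k.Coprime (Nat.card G)) (hq : ∀ x : G, x ^ k * x ∈ N) {θ : N → ℂ}
    (hθ : IsIrrCharacter N θ) (hr : ∀ n, θ (n ^ k) = θ n)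
    (hinv : ∀ (g : G) (n : N), θ ⟨g * n * g⁻¹, hN.conj_mem n n.2 g⟩ = θ n) :
    ∃ χ, IsIrrCharacter G χ ∧ (∀ n : N, χ n = θ n) ∧ ∀ g, χ (g ^ k) = χ g := by
  obtain ⟨η, hη, h⟩ := extends_of_subgroups hθ hinv fun q hqp _ => by
    have : Fact q.Prime := ⟨hqp⟩
    obtain ⟨Q⟩ : Nonempty (Sylow q (G ⧸ N)) := inferInstance
    obtain ⟨U, hU⟩ : ∃ U, U = (Q : Subgroup (G ⧸ N)).comap (QuotientGroup.mk' N) := ⟨_, rfl⟩
    have hNU : N ≤ U := hU ▸ QuotientGroup.le_comap_mk' N _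
    have hUi : U.index = (Q : Subgroup (G ⧸ N)).index := by
      rw [hU, Subgroup.index_comap_of_surjective _ (QuotientGroup.mk'_surjective N)]
    obtain ⟨a, ha⟩ := IsPGroup.iff_card.1 Q.isPGroup'
    have h1 := Subgroup.relIndex_mul_index hNU
    have h2 : N.relIndex U = q ^ a := by
      have h3 := (Q : Subgroup (G ⧸ N)).card_mul_index
      rw [ha, ← hUi, ← Subgroup.index_eq_card, ← h1] at h3
      exact (Nat.eq_of_mul_eq_mul_right (Nat.pos_of_ne_zero Subgroup.index_ne_zero_of_finite)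
        h3).symm
    obtain ⟨χ, hχ, h3⟩ := ext_of_prime_pow_index hqp a U (N.subgroupOf U) h2
      (Nat.odd_mul.1 (h1 ▸ hodd)).1 (hk.coprime_dvd_right (Subgroup.card_subgroup_dvd_card U))
      (fun x => hq x) _ (isIrrCharacter_subgroupOf hNU hθ) (fun n => hr ⟨n, n.2⟩)
      fun g n => hinv g ⟨n, n.2⟩
    exact ⟨U, hNU, χ, hUi ▸ Q.not_dvd_index, hχ.isCharacter, fun n => h3 ⟨⟨n, hNU n.2⟩, n.2⟩⟩
  exact exists_fixed_ext hodd hk hq hθ hr hη.isCharacter h

end Cfsg.Agent.Deg
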