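import Mathlib
import Cfsg.Agent.Ch.GlaubBase
import Cfsg.Agent.Ch.Table
import Cfsg.Agent.FG.ClassCount

/-! Class numbers of coprime split extensions `X = V G` with `V` abelian. -/

set_option autoImplicit false

namespace Cfsg.Agent.Deg
open Cfsg Cfsg.Agent.Ch
open scoped ComplexConjugate

variable {X : Type*} [Group X] {V G : Subgroup X}

theorem compl_unique (hGV : Subgroup.IsComplement' V G) {u u' g g' : X} (hu : u ∈ V) (hu' : u' ∈ V)
    (hg : g ∈ G) (hg' : g' ∈ G) (h : u * g = u' * g') : u = u' ∧ g = g' := by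
  have := hGV.1 (a₁ := (⟨u, hu⟩, ⟨g, hg⟩)) (a₂ := (⟨u', hu'⟩, ⟨g', hg'⟩)) h
  simpa using this

theorem compl_exists (hGV : Subgroup.IsComplement' V G) (x : X) : ∃ u ∈ V, ∃ g ∈ G, x = u * g := by
  obtain ⟨⟨u, g⟩, h⟩ := hGV.2 x
  exact ⟨u, u.2, g, g.2, h.symm⟩

theorem card_eq_mul_of_compl (hGV : Subgroup.IsComplement' V G) {C : Subgroup X}
    (h : ∀ u ∈ V, ∀ g ∈ G, u * g ∈ C → g ∈ C) :
    Nat.card C = Nat.card (V ⊓ C : Subgroup X) * Nat.card (G ⊓ C : Subgroup X) := by
  rw [← Nat.card_prod]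
  refine (Nat.card_congr (Equiv.ofBijective
    (fun y : (V ⊓ C : Subgroup X) × (G ⊓ C : Subgroup X) => (⟨y.1 * y.2, mul_mem y.1.2.2 y.2.2.2⟩ : C))
    ⟨fun y y' hy => ?_, fun x => ?_⟩)).symm
  · have := compl_unique hGV y.1.2.1 y'.1.2.1 y.2.2.1 y'.2.2.1 (congrArg Subtype.val hy)
    exact Prod.ext (Subtype.ext this.1) (Subtype.ext this.2)
  · obtain ⟨u, hu, g, hg, hx⟩ := compl_exists hGV x
    have h1 := h u hu g hg (hx ▸ x.2)
    exact ⟨(⟨u, hu, (mul_mem_cancel_right h1).1 (hx ▸ x.2)⟩, ⟨g, hg, h1⟩), Subtype.ext hx.symm⟩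

theorem card_centralizer_of_mem (hab : ∀ a ∈ V, ∀ b ∈ V, a * b = b * a)
    (hGV : Subgroup.IsComplement' V G) {v : X} (hv : v ∈ V) :
    Nat.card (Subgroup.centralizer ({v} : Set X)) =
      Nat.card V * Nat.card (G ⊓ Subgroup.centralizer ({v} : Set X) : Subgroup X) := by
  have h1 : V ≤ Subgroup.centralizer ({v} : Set X) := fun u hu =>
    FG.mem_centralizer_single.2 (hab u hu v hv)
  rw [card_eq_mul_of_compl hGV fun u hu g _ h => (mul_mem_cancel_left (h1 hu)).1 h,
    inf_eq_left.2 h1]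

theorem card_centralizer_mul [Finite X] [hV : V.Normal] (hab : ∀ a ∈ V, ∀ b ∈ V, a * b = b * a)
    (hGV : Subgroup.IsComplement' V G) (hcop : (Nat.card V).Coprime (Nat.card G)) {c a : X}
    (hc : c ∈ V) (ha : a ∈ G) (hca : c * a = a * c) :
    Nat.card (Subgroup.centralizer ({c * a} : Set X)) =
      Nat.card (V ⊓ Subgroup.centralizer ({a} : Set X) : Subgroup X) *
      Nat.card ((G ⊓ Subgroup.centralizer ({c} : Set X)) ⊓ Subgroup.centralizer ({a} : Set X) :
        Subgroup X) := by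
  obtain ⟨m, hm⟩ := Glb.exists_pow_mul_eq (G := V) (s := a)
    (hcop.coprime_dvd_right (Subgroup.orderOf_dvd_natCard G ha))
  have h1 : Subgroup.centralizer ({c * a} : Set X) =
      Subgroup.centralizer ({c} : Set X) ⊓ Subgroup.centralizer ({a} : Set X) := by
    ext x
    simp only [Subgroup.mem_inf, FG.mem_centralizer_single]
    constructor
    · intro h
      have h2 : x * a = a * x := by
        rw [← hm c hc hca]; exact (Commute.pow_right h m)
      refine ⟨mul_right_cancel (b := a) ?_, h2⟩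
      rw [mul_assoc, h, mul_assoc, mul_assoc, h2]
    · rintro ⟨h2, h3⟩
      exact Commute.mul_right h2 h3
  have h2 : V ≤ Subgroup.centralizer ({c} : Set X) := fun u hu =>
    FG.mem_centralizer_single.2 (hab u hu c hc)
  rw [h1, card_eq_mul_of_compl hGV, ← inf_assoc, inf_eq_left.2 h2, ← inf_assoc]
  intro u hu g hg h
  refine ⟨(mul_mem_cancel_left (h2 hu)).1 h.1, FG.mem_centralizer_single.2 ?_⟩
  have h3 := FG.mem_centralizer_single.1 h.2
  exact (compl_unique hGV hu (hV.conj_mem u hu a) (mul_mem hg ha) (mul_mem ha hg)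
    (by rw [← mul_assoc, h3]; group)).2

open Classical in
theorem card_conjClasses_mul_eq [Fintype X] [hV : V.Normal] (hab : ∀ a ∈ V, ∀ b ∈ V, a * b = b * a)
    (hGV : Subgroup.IsComplement' V G) (hcop : (Nat.card V).Coprime (Nat.card G)) :
    Nat.card (ConjClasses X) * Nat.card G = ∑ c ∈ Finset.univ.filter (· ∈ V),
      Nat.card (ConjClasses (G ⊓ Subgroup.centralizer ({c} : Set X) : Subgroup X)) *
        Nat.card (G ⊓ Subgroup.centralizer ({c} : Set X) : Subgroup X) := by
  have hV0 : 0 < Nat.card V := Nat.card_pos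
  refine Nat.eq_of_mul_eq_mul_left hV0 ?_
  have hb : Function.Bijective fun x : V × G => (x.1 : X) * x.2 := hGV
  rw [mul_left_comm, hGV.card_mul_card, ← FG.sum_card_centralizer,
    ← hb.sum_comp, Fintype.sum_prod_type_right]
  have key : ∀ a : G, ∑ u : V, Nat.card (Subgroup.centralizer ({(u : X) * a} : Set X)) =
      Nat.card V * ∑ c ∈ Finset.univ.filter (fun c => c ∈ V ∧ c * a = a * c),
        Nat.card ((G ⊓ Subgroup.centralizer ({c} : Set X)) ⊓ Subgroup.centralizer ({(a : X)} : Set X) :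
          Subgroup X) := by
    intro a
    have h1 := Glb.sum_coset_eq (G := V) (C := V ⊓ Subgroup.centralizer ({(a : X)} : Set X))
      (s := a) (fun g hg => hV.conj_mem g hg a)
      (hcop.coprime_dvd_right (Subgroup.orderOf_dvd_natCard G a.2))
      (fun c => by rw [Subgroup.mem_inf, FG.mem_centralizer_single])
      (fun x => (Nat.card (Subgroup.centralizer ({x} : Set X)) : ℂ))
      (fun x _ y => by rw [card_centralizer_eq_of_isConj (isConj_iff.2 ⟨x, rfl⟩).symm])
    have h2 : ∑ c : (V ⊓ Subgroup.centralizer ({(a : X)} : Set X) : Subgroup X),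
        (Nat.card (Subgroup.centralizer ({(c : X) * a} : Set X)) : ℂ) =
        Nat.card (V ⊓ Subgroup.centralizer ({(a : X)} : Set X) : Subgroup X) *
        ∑ c ∈ Finset.univ.filter (fun c => c ∈ V ∧ c * a = a * c),
        (Nat.card ((G ⊓ Subgroup.centralizer ({c} : Set X)) ⊓
          Subgroup.centralizer ({(a : X)} : Set X) : Subgroup X) : ℂ) := by
      rw [Finset.mul_sum, Finset.sum_subtype (Finset.univ.filter (fun c => c ∈ V ∧ c * a = a * c))
        (p := (· ∈ V ⊓ Subgroup.centralizer ({(a : X)} : Set X)))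
        (fun c => by simp [FG.mem_centralizer_single])]
      refine Finset.sum_congr rfl fun c _ => ?_
      rw [card_centralizer_mul hab hGV hcop c.2.1 a.2 (FG.mem_centralizer_single.1 c.2.2),
        Nat.cast_mul]
    rw [h2, mul_left_comm] at h1
    exact_mod_cast mul_left_cancel₀ (Nat.cast_ne_zero.2 Nat.card_pos.ne') h1
  simp only [key, ← Finset.mul_sum]
  congr 1
  simp only [← FG.sum_card_inf_centralizer, Finset.sum_filter]
  rw [Finset.sum_comm]
  refine Finset.sum_congr rfl fun c _ => ?_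
  by_cases hc : c ∈ V
  · simp only [hc, true_and, if_true]
    rw [← Finset.sum_filter, ← Finset.sum_filter]
    refine Finset.sum_bij (fun a _ => (a : X)) (fun a ha => ?_) (fun _ _ _ _ h => Subtype.ext h)
      (fun a ha => ?_) fun _ _ => rfl
    · simp only [Finset.mem_filter, Finset.mem_univ, true_and] at ha ⊢
      exact ⟨a.2, FG.mem_centralizer_single.2 ha.symm⟩
    · simp only [Finset.mem_filter, Finset.mem_univ, true_and] at ha ⊢
      exact ⟨⟨a, ha.1⟩, (FG.mem_centralizer_single.1 ha.2).symm, rfl⟩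
  · simp [hc]

end Cfsg.Agent.Deg
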