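import Mathlib
import Cfsg.Agent.Deg.KGV
import Cfsg.Agent.Ch.Galois
import Cfsg.Agent.Ch.Brauer
import Cfsg.Agent.Ch.Linear
import Cfsg.Agent.Ch.Integrality
import Cfsg.Agent.Cl.FormRep
import Cfsg.Agent.GT.ElemAbRep

/-! A criterion of Knörr type for the bound `k(GV) ≤ |V|`. -/

set_option autoImplicit false

namespace Cfsg.Agent.Deg.Kn
open Cfsg Cfsg.Agent.Ch
open scoped ComplexConjugate

/-- The radical of `p` in the ring of algebraic integers. -/
noncomputable def Rd (p : ℕ) : Submodule AlgInt ℂ :=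
  Submodule.map (Algebra.linearMap AlgInt ℂ) (Ideal.span {(p : AlgInt)}).radical

section Rd
variable {p : ℕ} {z w : ℂ}

theorem Rd.isIntegral (h : z ∈ Rd p) : IsIntegral ℤ z := by
  obtain ⟨x, -, rfl⟩ := h
  exact x.2

theorem Rd.mul_left (hw : IsIntegral ℤ w) (h : z ∈ Rd p) : w * z ∈ Rd p :=
  (Rd p).smul_mem ⟨w, hw⟩ h

theorem Rd.mul_right (h : z ∈ Rd p) (hw : IsIntegral ℤ w) : z * w ∈ Rd p :=
  mul_comm w z ▸ Rd.mul_left hw h

theorem Rd.of_pow {k : ℕ} (hk : 0 < k) (h : z ^ k ∈ Rd p) : z ∈ Rd p := by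
  have hz : IsIntegral ℤ z := IsIntegral.of_pow hk (Rd.isIntegral h)
  obtain ⟨x, hx, h1⟩ := h
  refine ⟨⟨z, hz⟩, ?_, rfl⟩
  have h2 : x = (⟨z, hz⟩ : AlgInt) ^ k := Subtype.ext h1
  exact Ideal.mem_radical_of_pow_mem (h2 ▸ hx)

theorem Rd.of_dvd {n : ℕ} (h : p ∣ n) : (n : ℂ) ∈ Rd p := by
  obtain ⟨m, rfl⟩ := h
  rw [Nat.cast_mul]
  exact Rd.mul_right ⟨p, Ideal.le_radical (Ideal.mem_span_singleton_self _), by simp⟩
    (integral_natCast m)

theorem Rd.dvd (hp : p.Prime) {n : ℕ} (h : (n : ℂ) ∈ Rd p) : p ∣ n := by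
  obtain ⟨x, ⟨k, hk⟩, h1⟩ := h
  obtain ⟨y, hy⟩ := Ideal.mem_span_singleton'.1 hk
  refine hp.dvd_of_dvd_pow (n := k) (integral_nat_dvd_of_eq_mul y.2 ?_)
  have h2 := congrArg Subtype.val hy
  have h3 : (x : ℂ) = n := h1
  push_cast at h2 ⊢
  rw [← h3, ← h2, mul_comm]

theorem Rd.sub_one (hp : p.Prime) (hz : z ^ p = 1) : z - 1 ∈ Rd p := by
  have hi : IsIntegral ℤ z := IsIntegral.of_pow hp.pos (by rw [hz]; exact isIntegral_one)
  let e : AlgInt := ⟨z, hi⟩
  obtain ⟨r, hr⟩ := exists_add_pow_prime_eq hp (1 - e) e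
  have he : e ^ p = 1 := Subtype.ext hz
  rw [sub_add_cancel, one_pow, he] at hr
  have h2 : (1 - e) ^ p = (-((1 - e) * e * r)) * p := by linear_combination -hr
  have h3 : 1 - z ∈ Rd p := ⟨1 - e, ⟨p, Ideal.mem_span_singleton'.2 ⟨_, h2.symm⟩⟩, rfl⟩
  simpa using (Rd p).neg_mem h3

/-- A sum of `p`-th roots of unity with a number of terms divisible by `p`. -/
theorem Rd.sum_root (hp : p.Prime) {ι : Type*} (s : Finset ι) (f : ι → ℂ)
    (hf : ∀ i ∈ s, f i ^ p = 1) (hs : p ∣ s.card) : ∑ i ∈ s, f i ∈ Rd p := by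
  have h1 := (Rd p).add_mem ((Rd p).sum_mem fun i hi => Rd.sub_one hp (hf i hi)) (Rd.of_dvd hs)
  simpa using h1

end Rd

/-- Complex numbers on which all automorphisms commute with complex conjugation. -/
def CM (z : ℂ) : Prop := ∀ σ : ℂ ≃+* ℂ, σ (conj z) = conj (σ z)

theorem CM.of_pow_eq_one {z : ℂ} {n : ℕ} (hn : n ≠ 0) (h : z ^ n = 1) : CM z := fun σ => by
  rw [← Complex.inv_eq_conj (norm_eq_one_of_pow_eq_one' hn h), map_inv₀,
    Complex.inv_eq_conj (norm_eq_one_of_pow_eq_one' hn (by rw [← map_pow, h, map_one]))]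

theorem CM.zero : CM 0 := fun σ => by simp

theorem CM.neg {z : ℂ} (h : CM z) : CM (-z) := fun σ => by simp only [map_neg, h σ]

theorem CM.mul {z w : ℂ} (h : CM z) (h' : CM w) : CM (z * w) := fun σ => by
  simp only [map_mul, h σ, h' σ]

theorem CM.sum {ι : Type*} {s : Finset ι} {f : ι → ℂ} (h : ∀ i ∈ s, CM (f i)) :
    CM (∑ i ∈ s, f i) := fun σ => by
  simp only [map_sum]
  exact Finset.sum_congr rfl fun i hi => h i hi σ

theorem CM.norm_sq {z : ℂ} (h : CM z) {n : ℕ} (hn : z * conj z = n) (σ : ℂ ≃+* ℂ) :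
    ‖σ z‖ ^ 2 = n := by
  have h1 := congrArg σ hn
  rw [map_mul, h σ, map_natCast, Complex.mul_conj'] at h1
  exact_mod_cast h1

variable {H : Type*} [Group H]

/-- Combinations of characters with algebraic integer coefficients. -/
noncomputable def ZS (H : Type*) [Group H] : Subalgebra AlgInt (H → ℂ) :=
  (Submodule.span AlgInt {χ : H → ℂ | IsCharacter H χ}).toSubalgebra
    (Submodule.subset_span IsCharacter.one) fun f g hf hg => by
      have h := Submodule.mul_mem_mul hf hg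
      rw [Submodule.span_mul_span] at h
      refine Submodule.span_mono ?_ h
      rintro _ ⟨a, ha, b, hb, rfl⟩
      exact IsCharacter.mul ha hb

theorem ZS.of_char {χ : H → ℂ} (h : IsCharacter H χ) : χ ∈ ZS H := Submodule.subset_span h

theorem ZS.smul {f : H → ℂ} {c : ℂ} (hc : IsIntegral ℤ c) (h : f ∈ ZS H) : c • f ∈ ZS H :=
  (ZS H).smul_mem h ⟨c, hc⟩

theorem ZS.isClassFunction {f : H → ℂ} (h : f ∈ ZS H) : IsClassFunction H f :=
  isClassFunction_of_mem_span (fun _ h => h.isClassFunction) h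

theorem ZS.isIntegral [Finite H] {f : H → ℂ} (h : f ∈ ZS H) (g : H) : IsIntegral ℤ (f g) := by
  induction h using Submodule.span_induction with
  | mem x hx => exact IsCharacter.isIntegral hx g
  | zero => exact isIntegral_zero
  | add x y _ _ hx hy => exact hx.add hy
  | smul a x _ hx => exact a.2.mul hx

theorem ZS.isIntegral_classInner [Fintype H] {f φ : H → ℂ} (h : f ∈ ZS H) (hφ : IsCharacter H φ) :
    IsIntegral ℤ (classInner f φ) := by
  induction h using Submodule.span_induction with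
  | mem x hx =>
    obtain ⟨n, hn⟩ := IsCharacter.exists_nat_classInner hx hφ
    rw [hn]; exact integral_natCast n
  | zero => rw [classInner_zero_left]; exact isIntegral_zero
  | add x y _ _ hx hy => rw [classInner_add_left]; exact hx.add hy
  | smul a x _ hx =>
    rw [← algebraMap_smul ℂ a x, classInner_smul_left]; exact a.2.mul hx

theorem ZS.card_smul [Finite H] {f : H → ℂ} (hf : IsClassFunction H f)
    (hi : ∀ g, IsIntegral ℤ (f g)) : (Nat.card H : ℂ) • f ∈ ZS H := by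
  have := Fintype.ofFinite H
  rw [hf.eq_sum_irr, Finset.smul_sum]
  refine (ZS H).sum_mem fun χ _ => ?_
  rw [smul_smul, card_mul_classInner]
  exact ZS.smul (IsIntegral.sum _ fun g _ => (hi g).mul
    (integral_conj (χ.2.isCharacter.isIntegral g))) (ZS.of_char χ.2.isCharacter)

/-- A character shifted by an element commuting with the subgroup. -/
theorem ZS.shift {X : Type*} [Group X] [Finite X] (K : Subgroup X) {v : X}
    (hv : ∀ k ∈ K, v * k = k * v) {χ : X → ℂ} (hχ : IsCharacter X χ) :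
    (fun k : K => χ (v * k)) ∈ ZS K := by
  have h1 := hχ.comp ((Subgroup.zpowers v).subtype.noncommCoprod K.subtype fun c s => by
    obtain ⟨_, n, rfl⟩ := c
    exact Commute.zpow_left (hv s s.2) n)
  have key : ∀ Θ : Subgroup.zpowers v × K → ℂ, IsCharacter _ Θ →
      (fun k : K => Θ (⟨v, Subgroup.mem_zpowers v⟩, k)) ∈ ZS K := fun Θ hΘ => by
    refine hΘ.induction_on (P := fun Θ => (fun k : K => Θ (⟨v, Subgroup.mem_zpowers v⟩, k)) ∈ ZS K)
      (ZS K).zero_mem (fun χ hχ => ?_) fun _ _ _ _ h1 h2 => by exact (ZS K).add_mem h1 h2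
    obtain ⟨φ, ψ, hφ, hψ, rfl⟩ := (isIrrCharacter_prod_iff χ).mp hχ
    exact ZS.smul (hφ.isCharacter.isIntegral _) (ZS.of_char hψ.isCharacter)
  exact key _ h1

/-- Inversion: the quotient `f 1 / f` for `f` with values dividing powers of `p`. -/
theorem ZS.div [Finite H] {p : ℕ} (hp : p.Prime) (hH : ¬ p ∣ Nat.card H) {f η : H → ℂ}
    (hf : f ∈ ZS H) (hd : ∀ g, ∃ (k : ℕ) (w : ℂ), IsIntegral ℤ w ∧ f g * w = p ^ k)
    (hη : ∀ g, η g * f g = f 1) (hi : ∀ g, IsIntegral ℤ (η g)) : η ∈ ZS H := by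
  have := Fintype.ofFinite H
  choose k w hw hk using hd
  have hp0 : (p : ℂ) ≠ 0 := Nat.cast_ne_zero.2 hp.ne_zero
  have h0 : ∀ g, f g ≠ 0 := fun g => left_ne_zero_of_mul (b := w g) (by rw [hk]; positivity)
  have hcl : IsClassFunction H η := fun g x => mul_right_cancel₀ (h0 g) (by
    rw [hη, ← ZS.isClassFunction hf g x, hη])
  obtain ⟨y, hy, h1⟩ := algebraMap_prod_mem (A := AlgInt) (B := ℂ)
    ((Subalgebra.toSubmodule (ZS H)).map (LinearMap.mulLeft AlgInt f))
    (by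
      rintro _ ⟨a, ha, rfl⟩ _ ⟨b, hb, rfl⟩
      exact ⟨a * (f * b), (ZS H).mul_mem ha ((ZS H).mul_mem hf hb), by
        simp only [LinearMap.mulLeft_apply]; ring⟩)
    (fun _ => f) (fun g => ⟨f g, ZS.isIntegral hf g⟩) (fun _ => ⟨1, (ZS H).one_mem, by simp⟩)
    (fun _ => rfl)
  have h2 : ((p : ℂ) ^ ∑ g, k g) • η = (f 1 * ∏ g, w g) • y := by
    funext g
    have h3 : f g * y g = ∏ g, f g := by
      have := congrFun h1 g
      simpa using this
    refine mul_left_cancel₀ (h0 g) ?_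
    simp only [Pi.smul_apply, smul_eq_mul]
    rw [← Finset.prod_pow_eq_pow_sum, ← Finset.prod_congr rfl fun g _ => hk g,
      Finset.prod_mul_distrib, ← h3, ← hη g]
    ring
  have h3 : ((p : ℂ) ^ ∑ g, k g) • η ∈ ZS H :=
    h2 ▸ ZS.smul ((ZS.isIntegral hf 1).mul (IsIntegral.prod _ fun g _ => hw g)) hy
  obtain ⟨a, b, hab⟩ := Nat.isCoprime_iff_coprime.2
    (Nat.Coprime.pow_left (∑ g, k g) ((Nat.Prime.coprime_iff_not_dvd hp).2 hH))
  have h4 := (ZS H).add_mem (ZS.smul (integral_intCast a) h3)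
    (ZS.smul (integral_intCast b) (ZS.card_smul hcl hi))
  have h5 : (a : ℂ) * (p : ℂ) ^ ∑ g, k g + b * Nat.card H = 1 := by exact_mod_cast hab
  rwa [smul_smul, smul_smul, ← add_smul, h5, one_smul] at h4

/-- Nonzero algebraic integers all of whose conjugate families have bounded square sum. -/
theorem card_le_of_forall_galois {ι : Type*} [Fintype ι] (a : ι → ℂ)
    (hi : ∀ i, IsIntegral ℤ (a i)) (h0 : ∀ i, a i ≠ 0) {B : ℝ}
    (hB : ∀ σ : ℂ ≃+* ℂ, ∑ i, ‖σ (a i)‖ ^ 2 ≤ B) : (Fintype.card ι : ℝ) ≤ B := by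
  have h1 : ∃ σ : ℂ ≃+* ℂ, 1 ≤ ‖σ (∏ i, a i)‖ := by
    by_contra h
    push Not at h
    rcases galois_eq_zero_or_norm_eq_one (IsIntegral.prod (s := Finset.univ) a fun i _ => hi i)
      (fun σ => (h σ).le) with h2 | h2
    · exact Finset.prod_ne_zero_iff.2 (fun i _ => h0 i) h2
    · exact (h (RingEquiv.refl ℂ)).ne h2
  obtain ⟨σ, hσ⟩ := h1
  refine le_trans (galois_card_le_sum_of_one_le_prod Finset.univ (fun i => ‖σ (a i)‖ ^ 2)
    (fun i _ => by positivity) ?_).1 (hB σ)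
  rw [Finset.prod_pow, ← norm_prod, ← map_prod]
  exact one_le_pow₀ hσ

/-- The criterion. -/
theorem criterion {X : Type*} [Group X] [Finite X] {p : ℕ} (hp : p.Prime) {V G : Subgroup X}
    [V.Normal] (hVexp : ∀ v ∈ V, v ^ p = 1) (hidx : ¬ p ∣ V.index)
    (hab : ∀ a ∈ V, ∀ b ∈ V, a * b = b * a) (hGV : Subgroup.IsComplement' V G) {v : X} (hv : v ∈ V)
    {K : Subgroup X} (hK : K = G ⊓ Subgroup.centralizer ({v} : Set X))
    (η : K → ℂ) (hη : η ∈ ZS K) (h1 : η 1 = 1)
    (hR : ∀ h, h ≠ 1 → η h ∈ Rd p)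
    (hB : ∀ (σ : ℂ ≃+* ℂ) h, ‖σ (η h)‖ ^ 2 *
      Nat.card (V ⊓ Subgroup.centralizer ({(h : X)} : Set X) : Subgroup X) ≤ Nat.card V) :
    Nat.card (ConjClasses X) ≤ Nat.card V := by
  classical
  have := Fintype.ofFinite K
  have hKG : K ≤ G := hK ▸ inf_le_left
  have hvK : ∀ k ∈ K, v * k = k * v := fun k hk =>
    (FG.mem_centralizer_single.1 (hK.le hk).2).symm
  have hG : ¬ p ∣ Nat.card G := hGV.symm.index_eq_card ▸ hidx
  have hcop : (Nat.card V).Coprime (Nat.card G) := by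
    have := Fact.mk hp
    obtain ⟨n, hn⟩ := IsPGroup.exists_card_eq (p := p) (G := V)
      fun x => ⟨1, Subtype.ext (by simpa using hVexp x x.2)⟩
    rw [hn]
    exact Nat.Coprime.pow_left n ((Nat.Prime.coprime_iff_not_dvd hp).2 hG)
  let F : IrrCharacter X → K → ℂ := fun χ => η * fun k : K => (χ : X → ℂ) (v * k)
  have hF : ∀ χ, F χ ∈ ZS K := fun χ => (ZS K).mul_mem hη (ZS.shift K hvK χ.2.isCharacter)
  have key := card_le_of_forall_galois
    (fun x : IrrCharacter X × IrrCharacter K => classInner (F x.1) x.2)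
    (fun x => ZS.isIntegral_classInner (hF x.1) x.2.2.isCharacter) (fun x h0 => ?_)
    (B := Nat.card V * Nat.card (ConjClasses K)) fun σ => ?_
  · rw [Fintype.card_prod, fintype_card_irr, fintype_card_irr, ← Nat.cast_mul, Nat.cast_le] at key
    exact Nat.le_of_mul_le_mul_right key Nat.card_pos
  · obtain ⟨χ, φ⟩ := x
    have h2 := card_mul_classInner (F χ) φ
    rw [show classInner (F χ) φ = 0 from h0, mul_zero,
      ← Finset.add_sum_erase _ _ (Finset.mem_univ 1)] at h2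
    have h3 : ∑ k ∈ Finset.univ.erase 1, F χ k * conj ((φ : K → ℂ) k) ∈ Rd p :=
      (Rd p).sum_mem fun k hk => Rd.mul_right (Rd.mul_right (hR k (Finset.mem_erase.1 hk).1)
        (χ.2.isCharacter.isIntegral _)) (integral_conj (φ.2.isCharacter.isIntegral _))
    have hε := Complex.isPrimitiveRoot_exp p hp.ne_zero
    obtain ⟨ω, hω, h4⟩ := χ.isGeneralizedCharacter.exists_sub_eq_one_sub_mul hp.ne_zero hε
      (hVexp v hv) (y := 1) (by simp)
    have h5 := Rd.mul_right (Rd.mul_right (Rd.sub_one hp hε.pow_eq_one) hω)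
      (integral_natCast (charDegree (φ : K → ℂ)))
    have h6 : ((charDegree (χ : X → ℂ) * charDegree (φ : K → ℂ) : ℕ) : ℂ) ∈ Rd p := by
      convert (Rd p).sub_mem h5 h3 using 1
      simp only [F, Pi.mul_apply, h1, OneMemClass.coe_one, ← φ.2.isCharacter.coe_charDegree,
        map_natCast, one_mul] at h2
      rw [← χ.2.isCharacter.coe_charDegree] at h4
      push_cast
      linear_combination -h2 - (charDegree (φ : K → ℂ) : ℂ) * h4
    rcases (Nat.Prime.dvd_mul hp).1 (Rd.dvd hp h6) with h | h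
    · exact hidx (h.trans (χ.2.charDegree_dvd_index_of_comm V hab))
    · exact hG (h.trans (φ.2.charDegree_dvd_card.trans (Subgroup.card_dvd_of_le hKG)))
  · rw [Fintype.sum_prod_type]
    have h2 : ∀ χ : IrrCharacter X, ∑ φ : IrrCharacter K, ‖σ (classInner (F χ) φ)‖ ^ 2 =
        (Nat.card K : ℝ)⁻¹ * ∑ k : K, ‖σ (η k)‖ ^ 2 * ‖(galoisIrr X σ χ : X → ℂ) (v * k)‖ ^ 2 := by
      intro χ
      have h3 : IsClassFunction K fun k => σ (F χ k) := fun g x =>
        congrArg σ (ZS.isClassFunction (hF χ) g x)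
      have h4 := h3.re_classInner_self_eq_sum
      rw [re_classInner_self,
        ← Equiv.sum_comp (galoisIrr K σ) fun φ : IrrCharacter K =>
          ‖classInner (fun k => σ (F χ k)) φ‖ ^ 2] at h4
      simp only [F, Pi.mul_apply, map_mul, norm_mul, mul_pow] at h4
      simp only [galoisIrr_apply, h4]
      refine Finset.sum_congr rfl fun φ _ => ?_
      rw [← show _ = σ (classInner (F χ) φ) from
        φ.isGeneralizedCharacter.classInner_galois (σ : ℂ →+* ℂ) (F χ)]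
      simp only [F, Pi.mul_apply, map_mul, coe_galoisIrr, RingHom.coe_coe]
    simp only [h2, ← Finset.mul_sum]
    rw [Equiv.sum_comp (galoisIrr X σ) fun χ : IrrCharacter X =>
      ∑ k : K, ‖σ (η k)‖ ^ 2 * ‖(χ : X → ℂ) (v * k)‖ ^ 2, Finset.sum_comm, inv_mul_le_iff₀ (Nat.cast_pos.2 Nat.card_pos), mul_comm, mul_assoc,
      ← Nat.cast_mul, ← sum_card_centralizer, Nat.cast_sum, Finset.mul_sum]
    refine Finset.sum_le_sum fun k _ => ?_
    rw [← Finset.mul_sum, sum_irr_norm_sq, card_centralizer_mul hab hGV hcop hv (hKG k.2) (hvK k k.2), ← hK,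
      FG.card_centralizer_coe, Nat.cast_mul, ← mul_assoc]
    exact mul_le_mul_of_nonneg_right (hB σ k) (Nat.cast_nonneg _)

end Cfsg.Agent.Deg.Kn
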