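import Mathlib
import Cfsg.Agent.Deg.KnorrA

/-! Good class functions attached to modules; the abelian case through Gauss sums. -/

set_option autoImplicit false

namespace Cfsg.Agent.Deg.Kn
open Cfsg Cfsg.Agent.Ch Cfsg.Agent.Cl Module
open scoped ComplexConjugate

variable {F : Type*} [Field F] {H : Type*} [Group H] {V : Type*} [AddCommGroup V] [Module F V]
  {p : ℕ}

/-- The module `ρ` has a class function as needed in the criterion. -/
def Gd (p : ℕ) (ρ : Representation F H V) : Prop :=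
  ∃ η ∈ ZS H, η 1 = 1 ∧ (∀ h, (∃ x, ρ h x ≠ x) → η h ∈ Rd p) ∧
    ∀ (σ : ℂ ≃+* ℂ) h, ‖σ (η h)‖ ^ 2 * Nat.card {x // ρ h x = x} ≤ Nat.card V

/-- The subrepresentation on an invariant subspace. -/
abbrev subRep {ρ : Representation F H V} {U : Submodule F V} (hU : RepInv ρ U) :
    Representation F H U := ρ.subrepresentation U fun g u hu => hU g u hu

theorem gd_of_trivial [Finite V] {ρ : Representation F H V} (h : ∀ g x, ρ g x = x) : Gd p ρ :=
  ⟨1, (ZS H).one_mem, rfl, fun g ⟨x, hx⟩ => absurd (h g x) hx, fun σ g => by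
    simpa using Nat.card_le_card_of_injective _ Subtype.val_injective⟩

theorem Gd.of_isCompl [Finite H] [Finite V] {ρ : Representation F H V} {U W : Submodule F V}
    (hc : IsCompl U W) (hU : RepInv ρ U) (hW : RepInv ρ W) (h1 : Gd p (subRep hU))
    (h2 : Gd p (subRep hW)) : Gd p ρ := by
  obtain ⟨η, a1, a2, a3, a4⟩ := h1
  obtain ⟨θ, b1, b2, b3, b4⟩ := h2
  have hdec : ∀ x : V, ∃ u ∈ U, ∃ w ∈ W, u + w = x := fun x =>
    Submodule.mem_sup.1 (hc.sup_eq_top ▸ Submodule.mem_top)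
  refine ⟨η * θ, (ZS H).mul_mem a1 b1, by simp [a2, b2], fun h ⟨x, hx⟩ => ?_, fun σ h => ?_⟩
  · obtain ⟨u, hu, w, hw, rfl⟩ := hdec x
    by_cases h3 : ρ h u = u
    · exact Rd.mul_left (ZS.isIntegral a1 h) (b3 h ⟨⟨w, hw⟩, fun h4 => hx (by
        rw [map_add, h3, show ρ h w = w from congrArg Subtype.val h4])⟩)
    · exact Rd.mul_right (a3 h ⟨⟨u, hu⟩, fun h4 => h3 (congrArg Subtype.val h4)⟩)
        (ZS.isIntegral b1 h)
  · have h3 : Nat.card {x // ρ h x = x} ≤
        Nat.card {x // subRep hU h x = x} * Nat.card {x // subRep hW h x = x} := by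
      rw [← Nat.card_prod]
      refine Nat.card_le_card_of_surjective (fun y => ⟨y.1.1 + y.2.1, by
        rw [map_add, show ρ h y.1.1 = y.1.1 from congrArg Subtype.val y.1.2,
          show ρ h y.2.1 = y.2.1 from congrArg Subtype.val y.2.2]⟩) fun x => ?_
      obtain ⟨u, hu, w, hw, hx⟩ := hdec x
      have h4 : ρ h u - u = w - ρ h w := by
        have := x.2
        rw [← hx, map_add] at this
        rw [sub_eq_sub_iff_add_eq_add, this, add_comm]
      have h5 : ρ h u - u = 0 := Submodule.disjoint_def.1 hc.disjoint _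
        (U.sub_mem (hU h u hu) hu) (h4 ▸ W.sub_mem hw (hW h w hw))
      exact ⟨(⟨⟨u, hu⟩, Subtype.ext (sub_eq_zero.1 h5)⟩,
        ⟨⟨w, hw⟩, Subtype.ext (sub_eq_zero.1 (h4 ▸ h5)).symm⟩), Subtype.ext hx⟩
    rw [← Nat.card_congr (Submodule.prodEquivOfIsCompl U W hc).toEquiv, Nat.card_prod,
      Pi.mul_apply, map_mul, norm_mul, mul_pow, Nat.cast_mul]
    calc _ ≤ ‖σ (η h)‖ ^ 2 * ‖σ (θ h)‖ ^ 2 * (Nat.card {x // subRep hU h x = x} *
          Nat.card {x // subRep hW h x = x} : ℕ) := by gcongr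
      _ = (‖σ (η h)‖ ^ 2 * Nat.card {x // subRep hU h x = x}) *
          (‖σ (θ h)‖ ^ 2 * Nat.card {x // subRep hW h x = x}) := by push_cast; ring
      _ ≤ _ := mul_le_mul (a4 σ h) (b4 σ h) (by positivity) (by positivity)

/-- The criterion for a faithful submodule with a good class function. -/
theorem criterion_rep {X : Type*} [Group X] [Finite X] (hp : p.Prime) {V G : Subgroup X}
    [V.Normal] (hVexp : ∀ v ∈ V, v ^ p = 1) (hidx : ¬ p ∣ V.index)
    (hab : ∀ a ∈ V, ∀ b ∈ V, a * b = b * a) (hGV : Subgroup.IsComplement' V G) {v : X} (hv : v ∈ V)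
    {K : Subgroup X} (hK : K = G ⊓ Subgroup.centralizer ({v} : Set X)) {U : Subgroup X}
    (hUV : U ≤ V) [Fact p.Prime] (hU : IsElementaryAbelian p U)
    (hKU : K ≤ Subgroup.normalizer (U : Set X))
    (hf : ∀ k ∈ K, (∀ u ∈ U, k * u = u * k) → k = 1) (hg : Gd p (GT.eaRep hU hKU)) :
    Nat.card (ConjClasses X) ≤ Nat.card V := by
  obtain ⟨η, a1, a2, a3, a4⟩ := hg
  refine criterion hp hVexp hidx hab hGV hv hK η a1 a2 (fun h hh => a3 h ?_) fun σ h => ?_
  · by_contra h0
    push Not at h0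
    exact hh (Subtype.ext (hf h h.2 fun u hu => GT.eaRep_apply_eq_iff.1 (h0 (GT.EAV.mk hU u hu))))
  · set C := Subgroup.centralizer ({(h : X)} : Set X)
    have h1 : Nat.card {x // GT.eaRep hU hKU h x = x} = Nat.card (U ⊓ C : Subgroup X) :=
      Nat.card_congr ⟨fun x => ⟨x.1.val, x.1.val_mem,
        FG.mem_centralizer_single.2 (GT.eaRep_apply_eq_iff.1 x.2).symm⟩,
        fun y => ⟨GT.EAV.mk hU y y.2.1,
          GT.eaRep_apply_eq_iff.2 (FG.mem_centralizer_single.1 y.2.2).symm⟩,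
        fun _ => rfl, fun _ => rfl⟩
    have h2 := a4 σ h
    rw [h1, GT.EAV.card_eq] at h2
    rw [FG.card_eq_relIndex_mul_card_inf U (V ⊓ C), FG.card_eq_relIndex_mul_card_inf U V,
      ← inf_assoc, inf_eq_left.2 hUV, Nat.cast_mul, Nat.cast_mul, mul_left_comm]
    refine mul_le_mul (Nat.cast_le.2 ?_) h2 (by positivity) (by positivity)
    exact Subgroup.relIndex_le_of_le_right inf_le_left Subgroup.index_ne_zero_of_finite

theorem addChar_pow {A : Type*} [AddCommGroup A] (ψ : AddChar A ℂ) {x : A} (hx : p • x = 0) :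
    ψ x ^ p = 1 := by
  rw [← AddChar.map_nsmul_eq_pow, hx, AddChar.map_zero_eq_one]

/-- Gauss sums. -/
theorem exists_gauss {K : Type*} [Field K] [Finite K] (hp : p.Prime) (hK : (p : K) = 0)
    (π : H →* Kˣ) : ∃ η ∈ ZS H, (∀ h, π h = 1 → η h = 1) ∧ ∀ h, π h ≠ 1 →
      η h ∈ Rd p ∧ ∀ σ : ℂ ≃+* ℂ, ‖σ (η h)‖ ^ 2 = Nat.card K := by
  classical
  have := Fintype.ofFinite K
  obtain ⟨e⟩ := MulChar.mulEquiv_units K ℂ
  set ψ := AddChar.FiniteField.primitiveChar_to_Complex K
  have hψ : ψ.IsPrimitive := AddChar.FiniteField.primitiveChar_to_Complex_isPrimitive K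
  have hψp : ∀ x, ψ x ^ p = 1 := fun x => addChar_pow ψ (by rw [nsmul_eq_mul, hK, zero_mul])
  have hψi : ∀ x, IsIntegral ℤ (ψ x) := fun x =>
    IsIntegral.of_pow hp.pos (by rw [hψp]; exact isIntegral_one)
  have hχ : ∀ (χ : MulChar K ℂ) x, x ≠ 0 → χ x ^ Nat.card Kˣ = 1 := fun χ x hx => by
    rw [← map_pow, ← Units.val_mk0 hx, ← Units.val_pow_eq_pow_val, pow_card_eq_one',
      Units.val_one, map_one]
  refine ⟨fun h => -gaussSum (e.symm (π h)) ψ, ?_, fun h hh => ?_, fun h hh => ⟨?_, ?_⟩⟩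
  · have h1 : (fun h => -gaussSum (e.symm (π h)) ψ) = -∑ x, ψ x • fun h => e.symm (π h) x := by
      funext h
      simp [gaussSum, mul_comm]
    rw [h1]
    refine (ZS H).neg_mem ((ZS H).sum_mem fun x _ => ZS.smul (hψi x) ?_)
    rcases eq_or_ne x 0 with rfl | hx
    · simp only [MulChar.map_zero]
      exact (ZS H).zero_mem
    · refine ZS.of_char (isCharacter_monoidHom_units
        ⟨⟨fun h => MulChar.equivToUnitHom (e.symm (π h)) (Units.mk0 x hx), ?_⟩, fun a b => ?_⟩)
      · ext; simp [MulChar.one_apply hx.isUnit]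
      · ext; simp
  · beta_reduce
    rw [hh, map_one, gaussSum_one_left (by simpa using hψ one_ne_zero), neg_neg]
  · have h1 : e.symm (π h) ≠ 1 := by simpa using hh
    have h2 : gaussSum (e.symm (π h)) ψ = ∑ x, e.symm (π h) x * (ψ x - 1) := by
      simp [gaussSum, mul_sub, MulChar.sum_eq_zero_of_ne_one h1]
    beta_reduce
    rw [h2]
    refine (Rd p).neg_mem ((Rd p).sum_mem fun x _ => Rd.mul_left ?_ (Rd.sub_one hp (hψp x)))
    rcases eq_or_ne x 0 with rfl | hx
    · rw [MulChar.map_zero]; exact isIntegral_zero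
    · exact IsIntegral.of_pow Nat.card_pos (by rw [hχ _ x hx]; exact isIntegral_one)
  · refine CM.norm_sq (z := -gaussSum (e.symm (π h)) ψ) (CM.neg (CM.sum fun x _ => CM.mul ?_ (CM.of_pow_eq_one hp.ne_zero (hψp x))))
      ?_
    · rcases eq_or_ne x 0 with rfl | hx
      · rw [MulChar.map_zero]; exact CM.zero
      · exact CM.of_pow_eq_one Nat.card_pos.ne' (hχ _ x hx)
    · rw [map_neg, neg_mul_neg, starRingEnd_apply, star_gaussSum_eq,
        gaussSum_mul_gaussSum_eq_card (by simpa using hh) hψ, Nat.card_eq_fintype_card]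

theorem gd_of_irreducible {H : Type*} [CommGroup H] [Finite V] [Nontrivial V] (hp : p.Prime)
    (hF : (p : F) = 0) (ρ : Representation F H V)
    (hirr : ∀ U : Submodule F V, RepInv ρ U → U = ⊥ ∨ U = ⊤) : Gd p ρ := by
  obtain ⟨K, _, _, π, e, -, he⟩ := rep_exists_field ρ hirr
  have := Finite.of_equiv V e.toEquiv.symm
  let π' : H →* Kˣ := (π.toRingHom.toMonoidHom.comp (MonoidAlgebra.of F H)).toHomUnits
  have he' : ∀ h x, ρ h (e x) = e (π' h * x) := fun h x => by
    rw [← Representation.asAlgebraHom_of, he]; rfl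
  obtain ⟨η, a1, a2, a3⟩ := exists_gauss hp
    (by rw [← map_natCast (algebraMap F K), hF, map_zero]) π'
  refine ⟨η, a1, a2 1 (map_one _), fun h ⟨x, hx⟩ => (a3 h fun h0 => hx ?_).1, fun σ h => ?_⟩
  · obtain ⟨x, rfl⟩ := e.surjective x
    rw [he', h0, Units.val_one, one_mul]
  · by_cases h0 : π' h = 1
    · rw [a2 h h0]
      simpa using Nat.card_le_card_of_injective _ Subtype.val_injective
    · have h1 : Nat.card {x // ρ h x = x} = 1 := by
        rw [Nat.card_eq_one_iff_exists]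
        refine ⟨⟨0, map_zero _⟩, fun ⟨x, hx⟩ => Subtype.ext ?_⟩
        obtain ⟨x, rfl⟩ := e.surjective x
        rw [he', e.injective.eq_iff] at hx
        by_contra h2
        exact h0 (Units.ext ((mul_eq_right₀ fun h3 => h2 (by simp [h3])).1 hx))
      rw [(a3 h h0).2, h1, Nat.card_congr e.toEquiv, Nat.cast_one, mul_one]

/-- Every coprime module of an abelian group is good. -/
theorem gd_of_comm.{u} {H : Type*} [CommGroup H] [Finite H] (hp : p.Prime) (hF : (p : F) = 0)
    (hH : (Nat.card H : F) ≠ 0) (n : ℕ) : ∀ {V : Type u} [AddCommGroup V] [Module F V] [Finite V]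
    (ρ : Representation F H V), Nat.card V = n → Gd p ρ := by
  induction n using Nat.strong_induction_on with
  | _ n ih =>
  intro V _ _ _ ρ hn
  rcases subsingleton_or_nontrivial V with hV | hV
  · exact gd_of_trivial fun _ _ => Subsingleton.elim _ _
  by_cases hirr : ∀ U : Submodule F V, RepInv ρ U → U = ⊥ ∨ U = ⊤
  · exact gd_of_irreducible hp hF ρ hirr
  push Not at hirr
  obtain ⟨U, hU, h0, h1⟩ := hirr
  obtain ⟨W, hW, hc⟩ := hU.exists_isCompl hH
  have hlt : ∀ {T : Submodule F V}, T ≠ ⊤ → Nat.card T < n := fun {T} hT => by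
    obtain ⟨x, -, hx⟩ := SetLike.exists_of_lt (lt_top_iff_ne_top.2 hT)
    exact hn ▸ Finite.card_subtype_lt hx
  exact Gd.of_isCompl hc hU hW (ih _ (hlt h1) _ rfl)
    (ih _ (hlt fun h => h0 (eq_bot_of_isCompl_top (h ▸ hc))) _ rfl)

end Cfsg.Agent.Deg.Kn
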