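import Mathlib
import Cfsg.Agent.Deg.KnorrB
import Cfsg.Agent.Cl.Weil

/-! Good class functions of self-dual modules: quadratic Gauss sums and the Weil character. -/

set_option autoImplicit false

namespace Cfsg.Agent.Deg.Kn
open Cfsg Cfsg.Agent.Ch Cfsg.Agent.Cl Module
open scoped ComplexConjugate

variable {F : Type*} [Field F] {H : Type*} [Group H] {V : Type*} [AddCommGroup V] [Module F V]
  {p : ℕ}

theorem ZS.perm {X Y : Type*} [MulAction H X] [Fintype X] [DecidableEq X] [Fintype Y] (q : X → Y)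
    (hq : ∀ (g : H) x, q (g • x) = q x) (w : Y → ℂ) (hw : ∀ y, IsIntegral ℤ (w y)) :
    (fun g : H => ∑ x with g • x = x, w (q x)) ∈ ZS H := by
  classical
  let S : Y → SubMulAction H X := fun y => ⟨{x | q x = y}, fun g x hx => (hq g x).trans hx⟩
  have h1 : (fun g : H => ∑ x with g • x = x, w (q x)) =
      ∑ y, w y • fun g : H => (Nat.card (MulAction.fixedBy (S y) g) : ℂ) := by
    funext g
    rw [← Finset.sum_fiberwise_of_maps_to (t := Finset.univ) (g := q) fun _ _ => Finset.mem_univ _,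
      Finset.sum_apply]
    refine Finset.sum_congr rfl fun y _ => ?_
    rw [Finset.sum_congr rfl fun x hx => congrArg w (Finset.mem_filter.1 hx).2, Finset.sum_const,
      nsmul_eq_mul, Pi.smul_apply, smul_eq_mul, mul_comm, ← Nat.card_eq_finsetCard]
    congr 2
    exact Nat.card_congr ⟨fun x => ⟨⟨x.1, (Finset.mem_filter.1 x.2).2⟩,
      Subtype.ext (Finset.mem_filter.1 (Finset.mem_filter.1 x.2).1).2⟩,
      fun x => ⟨x.1.1, Finset.mem_filter.2 ⟨Finset.mem_filter.2
        ⟨Finset.mem_univ _, congrArg Subtype.val x.2⟩, x.1.2⟩⟩, fun _ => rfl, fun _ => rfl⟩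
  rw [h1]
  exact (ZS H).sum_mem fun y _ => ZS.smul (hw y) (ZS.of_char (isCharacter_permChar _))

theorem card_eq_pow [Finite V] (hp : p.Prime) (hF : (p : F) = 0) : ∃ n, Nat.card V = p ^ n := by
  have := Fact.mk hp
  exact IsPGroup.exists_card_eq (p := p) (G := Multiplicative V) fun x => ⟨1, by
    rw [pow_one, ← ofAdd_toAdd x, ← ofAdd_nsmul, ← Nat.cast_smul_eq_nsmul F, hF, zero_smul,
      ofAdd_zero]⟩

theorem dvd_card [Finite V] (hp : p.Prime) (hF : (p : F) = 0) {U : Submodule F V} (hU : U ≠ ⊥) :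
    p ∣ Nat.card U := by
  obtain ⟨n, hn⟩ := card_eq_pow (V := U) hp hF
  have := Submodule.nontrivial_iff_ne_bot.2 hU
  rw [hn]
  refine dvd_pow_self p ?_
  rintro rfl
  exact (Finite.one_lt_card (α := U)).ne' hn

theorem quad_sum_mul_conj [Fintype V] [Finite F] {ψ : AddChar F ℂ} (hψ : ψ ≠ 1)
    (C : LinearMap.BilinForm F V) (hnd : ∀ x, (∀ y, C x y + C y x = 0) → x = 0) :
    (∑ x, ψ (C x x)) * conj (∑ x, ψ (C x x)) = Nat.card V := by
  have hB : LinearMap.BilinForm.Nondegenerate (C + C.flip) :=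
    ⟨hnd, fun x hx => hnd x fun y => (add_comm _ _).trans (hx y)⟩
  rw [map_sum, Finset.sum_mul_sum, Finset.sum_comm]
  simp_rw [fun y => (Equiv.sum_comp (Equiv.addRight y) fun x => ψ (C x x) * conj (ψ (C y y))).symm]
  rw [Finset.sum_comm, Finset.sum_eq_single 0 (fun w _ hw => ?_) (by simp)]
  · simp [← AddChar.map_neg_eq_conj, ← AddChar.map_add_eq_mul]
  · have h1 : ∀ y, ψ (C (w + y) (w + y)) * conj (ψ (C y y)) = ψ (C w w) * ψ ((C + C.flip) w y) := by
      intro y
      rw [← AddChar.map_neg_eq_conj, ← AddChar.map_add_eq_mul, ← AddChar.map_add_eq_mul]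
      congr 1
      simp only [map_add, LinearMap.add_apply, LinearMap.BilinForm.flip_apply]
      ring
    simp only [Equiv.coe_addRight, h1]
    rw [← Finset.mul_sum, addChar_sum_bilin hB hψ hw, mul_zero]

/-- The fixed space. -/
def fixS (g : V →ₗ[F] V) : Submodule F V := LinearMap.eqLocus g LinearMap.id

theorem mem_fixS {g : V →ₗ[F] V} {x : V} : x ∈ fixS g ↔ g x = x := Iff.rfl

theorem gd_of_quad [Finite H] [Finite V] [Finite F] (hp : p.Prime) [CharP F p]
    (hH : ¬ p ∣ Nat.card H) (ρ : Representation F H V) (C : LinearMap.BilinForm F V)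
    (hC : ∀ g x y, C (ρ g x) (ρ g y) = C x y) (hnd : ∀ x, (∀ y, C x y + C y x = 0) → x = 0) :
    Gd p ρ := by
  classical
  have := Fintype.ofFinite V
  have := Fintype.ofFinite F
  have hF := CharP.cast_eq_zero F p
  set ψ := AddChar.FiniteField.primitiveChar_to_Complex F
  have hψ : ψ ≠ 1 := by
    simpa using AddChar.FiniteField.primitiveChar_to_Complex_isPrimitive F one_ne_zero
  have hψp : ∀ x, ψ x ^ p = 1 := fun x => addChar_pow ψ (by rw [nsmul_eq_mul, hF, zero_mul])
  have hψi : ∀ x, IsIntegral ℤ (ψ x) := fun x =>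
    IsIntegral.of_pow hp.pos (by rw [hψp]; exact isIntegral_one)
  let B : LinearMap.BilinForm F V := C + C.flip
  have hB : ∀ x y, B x y = C x y + C y x := fun _ _ => rfl
  let D : H → Submodule F V := fun h => B.orthogonal (fixS (ρ h))
  have hc : ∀ h, IsCompl (fixS (ρ h)) (D h) := fun h => form_isCompl_orthogonal fun x hx h0 => by
    have := Fintype.ofFinite (Subgroup.zpowers h)
    have h1 : ∀ g : Subgroup.zpowers h, ρ g x = x := fun g => by
      obtain ⟨n, hn⟩ := (mem_powers_iff_mem_zpowers.2 g.2 : (g : H) ∈ Submonoid.powers h)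
      rw [← hn, map_pow, Module.End.pow_apply]
      exact Function.iterate_fixed hx n
    refine hnd x fun y => ?_
    have h2 := h0 (∑ g : Subgroup.zpowers h, ρ g y) (by
      rw [mem_fixS, map_sum,
        ← Equiv.sum_comp (Equiv.mulLeft (⟨h, Subgroup.mem_zpowers h⟩ : Subgroup.zpowers h))
          fun g => ρ g y]
      simp)
    have h3 : ∀ g : Subgroup.zpowers h, B x (ρ g y) = C x y + C y x := fun g => by
      rw [← h1 g, hB, hC, hC, h1 g]
    rw [map_sum, Finset.sum_congr rfl fun g _ => h3 g, Finset.sum_const, nsmul_eq_mul] at h2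
    refine (mul_eq_zero.1 h2).resolve_left fun h4 => hH ?_
    rw [CharP.cast_eq_zero_iff F p, Finset.card_univ, ← Nat.card_eq_fintype_card] at h4
    exact h4.trans (Subgroup.card_subgroup_dvd_card _)
  let _ : MulAction H V := MulAction.compHom V ρ
  have hf := ZS.perm (H := H) (fun x : V => C x x) (fun g x => hC g x x) ψ hψi
  set f := fun g : H => ∑ x : V with g • x = x, ψ (C x x) with hf'
  let η : H → ℂ := fun h => ∑ y : D h, ψ (C y y)
  have hηi : ∀ h, IsIntegral ℤ (η h) := fun h => IsIntegral.sum _ fun y _ => hψi _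
  have hf1 : f 1 = ∑ x, ψ (C x x) := by simp [hf']
  have hηf : ∀ h, η h * f h = f 1 := fun h => by
    have h1 : f h = ∑ x : fixS (ρ h), ψ (C x x) :=
      Finset.sum_subtype _ (fun x => by simp only [Finset.mem_filter, Finset.mem_univ, true_and]; rfl)
        fun x => ψ (C x x)
    rw [hf1, h1, ← Equiv.sum_comp (Submodule.prodEquivOfIsCompl _ _ (hc h)).toEquiv,
      Fintype.sum_prod_type, mul_comm, Finset.sum_mul_sum]
    refine Finset.sum_congr rfl fun x _ => Finset.sum_congr rfl fun y _ => ?_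
    rw [← AddChar.map_add_eq_mul]
    congr 1
    have h2 : C x y + C y x = 0 := y.2 x x.2
    simp only [LinearEquiv.coe_toEquiv, Submodule.coe_prodEquivOfIsCompl', map_add,
      LinearMap.add_apply]
    linear_combination -h2
  obtain ⟨n, hn⟩ := card_eq_pow (V := V) hp hF
  have hV := quad_sum_mul_conj hψ C hnd
  have hD : ∀ h, η h * conj (η h) = Nat.card (D h) := fun h =>
    quad_sum_mul_conj hψ (C.restrict (D h)) fun x hx => Subtype.ext (hnd x fun y => by
      obtain ⟨u, hu, w, hw, rfl⟩ := Submodule.mem_sup.1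
        ((hc h).sup_eq_top ▸ Submodule.mem_top : y ∈ fixS (ρ h) ⊔ D h)
      have h1 : C u x + C x u = 0 := x.2 u hu
      have h2 : C x w + C w x = 0 := hx ⟨w, hw⟩
      simp only [map_add, LinearMap.add_apply]
      linear_combination h1 + h2)
  refine ⟨η, ZS.div hp hH hf (fun h => ⟨n, η h * conj (f 1), (hηi h).mul
    (integral_conj (ZS.isIntegral hf 1)), ?_⟩) hηf hηi, ?_, fun h ⟨x, hx⟩ => ?_, fun σ h => ?_⟩
  · rw [← mul_assoc, mul_comm (f h), hηf, hf1, hV, hn, Nat.cast_pow]
  · refine mul_right_cancel₀ (b := f 1) ?_ (by rw [hηf, one_mul])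
    refine left_ne_zero_of_mul (b := conj (f 1)) ?_
    rw [hf1, hV]
    exact Nat.cast_ne_zero.2 Nat.card_pos.ne'
  · refine Rd.sum_root hp _ _ (fun y _ => hψp _) ?_
    rw [Finset.card_univ, ← Nat.card_eq_fintype_card]
    refine dvd_card hp hF fun h0 => hx ?_
    have h1 := eq_top_of_isCompl_bot (h0 ▸ hc h)
    exact mem_fixS.1 (h1 ▸ Submodule.mem_top)
  · rw [CM.norm_sq (CM.sum fun y _ => CM.of_pow_eq_one hp.ne_zero (hψp _)) (hD h),
      ← Nat.card_congr (Submodule.prodEquivOfIsCompl _ _ (hc h)).toEquiv, Nat.card_prod, mul_comm,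
      Nat.cast_mul]
    rfl

theorem gd_of_alt_two [Finite H] [Finite V] [Finite F] [CharP F 2]
    (hH : ¬ 2 ∣ Nat.card H) (ρ : Representation F H V) (B : LinearMap.BilinForm F V)
    (hB : B.Nondegenerate) (hA : B.IsAlt) (hinv : ∀ g x y, B (ρ g x) (ρ g y) = B x y) :
    Gd 2 ρ := by
  have := Fintype.ofFinite H
  obtain ⟨m, hm⟩ := sp_even_finrank hB hA
  obtain ⟨e, he⟩ := sp_exists_equiv hB hA (hm.trans (two_mul m).symm)
  let C₀ : LinearMap.BilinForm F V := LinearMap.mk₂ F
    (fun u v => ∑ i, e u (Sum.inr i) * e v (Sum.inl i))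
    (by simp [add_mul, Finset.sum_add_distrib]) (by simp [Finset.mul_sum, mul_assoc])
    (by simp [mul_add, Finset.sum_add_distrib]) (by simp [Finset.mul_sum, mul_left_comm])
  have h0 : ∀ u v, C₀ u v + C₀ v u = B u v := fun u v => by
    rw [← he, spB_eq_sum]
    simp [C₀, CharTwo.sub_eq_add, Finset.sum_add_distrib, mul_comm]
  refine gd_of_quad Nat.prime_two hH ρ (∑ g, C₀.comp (ρ g) (ρ g)) (fun g x y => ?_) fun x hx => ?_
  · simp only [LinearMap.sum_apply, LinearMap.BilinForm.comp_apply]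
    rw [← Equiv.sum_comp (Equiv.mulRight g) fun g => C₀ (ρ g x) (ρ g y)]
    simp
  · refine hB.1 x fun y => ?_
    have h1 := hx y
    simp only [LinearMap.sum_apply, LinearMap.BilinForm.comp_apply, ← Finset.sum_add_distrib, h0,
      hinv, Finset.sum_const, nsmul_eq_mul] at h1
    refine (mul_eq_zero.1 h1).resolve_left fun h4 => hH ?_
    rwa [CharP.cast_eq_zero_iff F 2, Finset.card_univ, ← Nat.card_eq_fintype_card] at h4

theorem weil_key {W : Type*} [AddCommGroup W] [Module ℂ W] [Fintype V]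
    {B : LinearMap.BilinForm F V} {ψ : AddChar F ℂ} {π : V → Module.End ℂ W} (h : IsHeis B ψ π)
    (hp : p.Prime) (hF : (p : F) = 0) (g : V →ₗ[F] V) (hg : ∀ u v, B (g u) (g v) = B u v)
    {T T' : Module.End ℂ W} (hT : ∀ v, T * π v = π (g v) * T) (hTT : T * T' = 1) {m : ℕ}
    (hm : T ^ (m + 1) = 1) :
    LinearMap.trace ℂ W T * LinearMap.trace ℂ W T' = Nat.card (fixS g) ∧
      ∀ η : ℂ, η * LinearMap.trace ℂ W T = finrank ℂ W →
        IsIntegral ℤ η ∧ ((∃ x, g x ≠ x) → η ∈ Rd p) := by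
  classical
  have := h.finite
  have hψp : ∀ x, ψ x ^ p = 1 := fun x => addChar_pow ψ (by rw [nsmul_eq_mul, hF, zero_mul])
  have hψi : ∀ x, IsIntegral ℤ (ψ x) := fun x =>
    IsIntegral.of_pow hp.pos (by rw [hψp]; exact isIntegral_one)
  have hd : (finrank ℂ W : ℂ) ≠ 0 := Nat.cast_ne_zero.2 h.finrank_ne_zero
  obtain ⟨c, hc⟩ := h.eq_smul_of_commute (x := ∑ u, π u * T' * π (-u)) fun w => by
    rw [Finset.sum_mul, Finset.mul_sum, ← Equiv.sum_comp (Equiv.addLeft w)]
    refine Finset.sum_congr rfl fun u _ => ?_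
    rw [mul_assoc, h.mul, ← mul_assoc, ← mul_assoc, h.mul]
    simp [h.alt.self_eq_zero, h.alt.neg_eq]
  have hc1 : c = finrank ℂ W * LinearMap.trace ℂ W T' := by
    have h1 := congrArg (LinearMap.trace ℂ W) hc
    have h2 : ∀ u, LinearMap.trace ℂ W (π u * T' * π (-u)) = LinearMap.trace ℂ W T' := fun u => by
      rw [LinearMap.trace_mul_comm, ← mul_assoc, h.mul]
      simp [h.alt.self_eq_zero, h.zero]
    rw [map_sum, Finset.sum_congr rfl fun u _ => h2 u, Finset.sum_const, Finset.card_univ,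
      ← Nat.card_eq_fintype_card, ← h.card, map_smul, LinearMap.trace_one, nsmul_eq_mul] at h1
    refine mul_right_cancel₀ hd ?_
    rw [← smul_eq_mul, ← h1]
    push_cast
    ring
  have hM' : ∑ u, π (g u) * π (-u) = c • T := by
    rw [← mul_one T, ← mul_smul_comm, ← hc, Finset.mul_sum]
    refine Finset.sum_congr rfl fun u _ => ?_
    rw [← mul_assoc, ← mul_assoc, hT, mul_assoc _ T, hTT, mul_one]
  have h1 : LinearMap.trace ℂ W T * LinearMap.trace ℂ W T' = Nat.card (fixS g) := by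
    have h1 := congrArg (LinearMap.trace ℂ W) hM'
    have h2 : ∀ u, LinearMap.trace ℂ W (π (g u) * π (-u)) =
        if g u = u then (finrank ℂ W : ℂ) else 0 := fun u => by
      rw [h.mul, map_smul]
      split_ifs with h3
      · simp [h3, h.alt.self_eq_zero, h.zero]
      · rw [h.trace_eq_zero (by rwa [← sub_eq_add_neg, sub_ne_zero]), smul_zero]
    rw [map_sum, Finset.sum_congr rfl fun u _ => h2 u, ← Finset.sum_filter, Finset.sum_const,
      map_smul, hc1, nsmul_eq_mul, smul_eq_mul, ← Fintype.card_subtype,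
      ← Nat.card_eq_fintype_card] at h1
    refine mul_right_cancel₀ hd ?_
    rw [show Nat.card (fixS g) = Nat.card {u // g u = u} from rfl, h1]
    ring
  refine ⟨h1, fun η hη => ?_⟩
  obtain ⟨S, hS⟩ := (fixS g).exists_isCompl
  have hM : ∑ s : S, π (g s) * π (-s) = η • T := by
    have h2 : ∑ u, π (g u) * π (-u) = (Nat.card (fixS g) : ℂ) • ∑ s : S, π (g s) * π (-s) := by
      rw [← Equiv.sum_comp (Submodule.prodEquivOfIsCompl _ _ hS).toEquiv, Fintype.sum_prod_type,
        Nat.cast_smul_eq_nsmul, Nat.card_eq_fintype_card, ← Finset.card_univ, ← Finset.sum_const]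
      refine Finset.sum_congr rfl fun x _ => Finset.sum_congr rfl fun s _ => ?_
      have h3 : g x = x := x.2
      have h4 : B (g s) x = -B x s := by rw [← h3, hg, h3, h.alt.neg_eq]
      simp only [LinearEquiv.coe_toEquiv, Submodule.coe_prodEquivOfIsCompl', map_add, h3, h.mul]
      congr 2
      · simp [h4, h.alt.self_eq_zero]
      · abel
    refine smul_right_injective _
      (show (Nat.card (fixS g) : ℂ) ≠ 0 from Nat.cast_ne_zero.2 Nat.card_pos.ne') ?_
    dsimp only
    rw [← h2, hM', hc1, ← h1, ← hη, smul_smul]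
    congr 1
    ring
  let l := h.basis.sumCoords
  have hl : ∀ v, l (π v) = 1 := fun v => by rw [← h.basis_apply, Basis.sumCoords_self_apply]
  have hMu : ∀ u, η • T * π u =
      ∑ s : S, (ψ (B (g s) (-s)) * ψ (B (g s + -s) u)) • π (g s + -s + u) := fun u => by
    rw [← hM, Finset.sum_mul]
    refine Finset.sum_congr rfl fun s _ => ?_
    rw [h.mul, smul_mul_assoc, h.mul, smul_smul]
  have step : ∀ (q : ℕ) (x : Module.End ℂ W), (∀ u, l (x * π u) ∈ Rd q) →
      ∀ k u, l (x * (η • T) ^ k * π u) ∈ Rd q := fun q x hx k => by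
    induction k with
    | zero => simpa using hx
    | succ k ih =>
      intro u
      rw [pow_succ, ← mul_assoc, mul_assoc, hMu, Finset.mul_sum, map_sum]
      refine (Rd q).sum_mem fun s _ => ?_
      rw [mul_smul_comm, map_smul]
      exact Rd.mul_left ((hψi _).mul (hψi _)) (ih _)
  have hpow : l (η • T * (η • T) ^ m * π 0) = η ^ (m + 1) := by
    rw [← pow_succ', smul_pow, hm, smul_mul_assoc, one_mul, map_smul, hl, smul_eq_mul, mul_one]
  have hlM : ∀ u, l (η • T * π u) = ∑ s : S, ψ (B (g s) (-s)) * ψ (B (g s + -s) u) := fun u => by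
    simp only [hMu, map_sum, map_smul, hl, smul_eq_mul, mul_one]
  refine ⟨Rd.isIntegral (p := 1) (Rd.of_pow m.succ_pos (hpow ▸ step 1 _ (fun u => ?_) m 0)),
    fun ⟨x, hx⟩ => Rd.of_pow m.succ_pos (hpow ▸ step p _ (fun u => ?_) m 0)⟩
  · rw [hlM, ← mul_one (∑ s : S, _)]
    exact Rd.mul_left (IsIntegral.sum _ fun s _ => (hψi _).mul (hψi _))
      (by simpa using Rd.of_dvd (dvd_refl 1))
  · rw [hlM]
    refine Rd.sum_root hp _ _ (fun s _ => by rw [mul_pow, hψp, hψp, mul_one]) ?_
    rw [Finset.card_univ, ← Nat.card_eq_fintype_card]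
    refine dvd_card hp hF fun h0 => hx ?_
    exact mem_fixS.1 (eq_top_of_isCompl_bot (h0 ▸ hS) ▸ Submodule.mem_top)

theorem gd_of_alt [Finite H] [Finite V] [Finite F] (hp : p.Prime) (hF : (p : F) = 0)
    (h2 : (2 : F) ≠ 0) (hH : ¬ p ∣ Nat.card H) (ρ : Representation F H V)
    (B : LinearMap.BilinForm F V) (hB : B.Nondegenerate) (hA : B.IsAlt)
    (hinv : ∀ g x y, B (ρ g x) (ρ g y) = B x y) : Gd p ρ := by
  have := Fintype.ofFinite V
  obtain ⟨m, hm⟩ := sp_even_finrank hB hA
  obtain ⟨π, h⟩ := exists_isHeis (ψ := AddChar.FiniteField.primitiveChar_to_Complex F) hB hA h2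
    (by simpa using AddChar.FiniteField.primitiveChar_to_Complex_isPrimitive F one_ne_zero)
    (hm.trans (two_mul m).symm)
  obtain ⟨ω, hω⟩ := h.exists_weil
  have := h.finite
  let φ : H →* SpG B := ((LinearMap.GeneralLinearGroup.generalLinearEquiv F V).toMonoidHom.comp
    ρ.asGroupHom).codRestrict _ fun g => hinv g
  let τ : Representation ℂ H _ := ω.comp φ
  have hχ := isCharacter_character τ
  have key := fun g : H => weil_key h hp hF (ρ g) (hinv g) (T := τ g) (T' := τ g⁻¹) (hω (φ g))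
    (by rw [← map_mul, mul_inv_cancel, map_one]) (m := Nat.card H - 1)
    (by rw [Nat.sub_add_cancel Nat.card_pos, ← map_pow, pow_card_eq_one', map_one])
  have h1 : ∀ g, τ.character g * τ.character g⁻¹ = Nat.card (fixS (ρ g)) := fun g => (key g).1
  have h0 : ∀ g, τ.character g ≠ 0 := fun g => left_ne_zero_of_mul (b := τ.character g⁻¹)
    (by rw [h1]; exact Nat.cast_ne_zero.2 Nat.card_pos.ne')
  have h3 : ∀ g, τ.character 1 / τ.character g * τ.character g = τ.character 1 := fun g =>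
    div_mul_cancel₀ _ (h0 g)
  have h4 := fun g => (key g).2 _ ((h3 g).trans τ.char_one)
  refine ⟨fun g => τ.character 1 / τ.character g, ZS.div hp hH (ZS.of_char hχ) (fun g => ?_) h3
    fun g => (h4 g).1, div_self (h0 1), fun g => (h4 g).2, fun σ g => ?_⟩
  · obtain ⟨n, hn⟩ := card_eq_pow (V := fixS (ρ g)) hp hF
    exact ⟨n, _, hχ.isIntegral g⁻¹, by rw [h1, hn, Nat.cast_pow]⟩
  · have h5 : CM (τ.character g) := fun σ => by
      rw [← hχ.apply_inv]
      exact (hχ.galois (σ : ℂ →+* ℂ)).apply_inv g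
    rw [show Nat.card {x // ρ g x = x} = Nat.card (fixS (ρ g)) from rfl,
      ← h5.norm_sq (hχ.apply_inv g ▸ h1 g) σ, ← mul_pow, ← norm_mul, ← map_mul, h3, τ.char_one,
      map_natCast, Complex.norm_natCast, ← Nat.cast_pow, h.card]

/-- Every coprime self-dual module is good. -/
theorem gd_of_selfDual [Finite H] [Finite V] [Finite F] (hp : p.Prime) [CharP F p]
    (hH : ¬ p ∣ Nat.card H) (ρ : Representation F H V) (B : LinearMap.BilinForm F V)
    (hB : B.Nondegenerate) (hinv : ∀ g x y, B (ρ g x) (ρ g y) = B x y) : Gd p ρ := by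
  obtain ⟨U, W, hc, hU, hW, ⟨A, a1, -, a3, a4⟩, ⟨S, -, s2, s3, s4⟩, h2⟩ :=
    rep_exists_symplectic_orthogonal (ρ := ρ)
      (fun h => hH ((CharP.cast_eq_zero_iff F p _).1 h)) hB hinv
  have hA : (A.restrict U).Nondegenerate := LinearMap.BilinForm.Nondegenerate.ofSeparatingLeft
    fun x hx => Subtype.ext (a4 x x.2 fun y hy => hx ⟨y, hy⟩)
  have hA' : (A.restrict U).IsAlt := fun x => a1 rfl x x.2
  by_cases h3 : (2 : F) = 0
  · obtain rfl : p = 2 := (Nat.prime_dvd_prime_iff_eq hp Nat.prime_two).1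
      ((CharP.cast_eq_zero_iff F p 2).1 (by exact_mod_cast h3))
    exact Gd.of_isCompl hc hU hW
      (gd_of_alt_two hH _ _ hA hA' fun g x y => a3 g x x.2 y y.2)
      (gd_of_trivial fun g x => Subtype.ext (h2 h3 g x x.2))
  · refine Gd.of_isCompl hc hU hW
      (gd_of_alt hp (CharP.cast_eq_zero F p) h3 hH _ _ hA hA' fun g x y => a3 g x x.2 y y.2)
      (gd_of_quad hp hH _ (S.restrict W) (fun g x y => s3 g x x.2 y y.2) fun x hx =>
        Subtype.ext (s4 x x.2 fun y hy => ?_))
    have h4 : S x y + S y x = 0 := hx ⟨y, hy⟩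
    rw [s2 rfl y hy x x.2, ← two_mul] at h4
    exact (mul_eq_zero.1 h4).resolve_left h3

end Cfsg.Agent.Deg.Kn
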